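import Cfsg.Agent.Lib.PLocal.Thompson
import Cfsg.Agent.Lib.QuadAct.Basic
import Cfsg.Agent.Lib.PGroups.Basic

/-!
# The bound on the action of a maximal abelian subgroup on a section of class two

`A` is an abelian subgroup of largest order of the `p`-group `S`, `A₁ ≤ A` has index `p` and `a ∈ A`.
Suppose `B ≤ S` is normalized by `a`, `Y ≤ B` is central in `B`, normalized by `a`, `B / Y` is abelian,
and `A₁` acts trivially on `B / Y`.  Then `a` cannot act on `B / Y` with a Jordan block of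
size at least `5`: no `x ∈ B` satisfies `[a, a, a, a, x] ∉ Y`, `[a, a, a, a, a, x] ∈ Y` (for `p` odd).
-/

set_option autoImplicit false
set_option linter.unusedSectionVars false
set_option linter.style.haveILetI false

namespace Cfsg.Agent.Lib.Transfer.JCore

open Subgroup Cfsg Cfsg.Agent.Lib.PLocal.Thompson
open scoped commutatorElement

universe u

/-- The computation in a commutative group with a square-zero endomorphism. -/
lemma tail_eq_one {M : Type*} [Group M] (D : M →* M) (hD : ∀ z, D (D z) = 1)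
    (hodd : ∀ z : M, z * z = 1 → z = 1) (w : ℕ → ℕ → M)
    (h : ∀ i j, D (w i j) = w (i + 1) (j + 1) * w (i + 1) j * w i (j + 1))
    (hd : ∀ i, w i i = 1) (h5 : ∀ i, w i 5 = 1) :
    w 3 4 = 1 ∧ w 2 4 = 1 ∧ w 2 3 = 1 := by
  have d23 := h 2 3
  have d24 := h 2 4
  have d34 := h 3 4
  have d13 := h 1 3
  have d14 := h 1 4
  have d12 := h 1 2
  have d04 := h 0 4
  have d03 := h 0 3
  simp only [Nat.reduceAdd, zero_add, hd, h5, one_mul, mul_one] at d23 d24 d34 d13 d14 d12 d04 d03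
  have e34 : w 3 4 = 1 := by
    have h1 := hD (w 2 3)
    rw [d23, map_mul, d34, d24, one_mul] at h1
    exact h1
  rw [e34] at d23 d24
  simp only [one_mul] at d23
  have e24 : w 2 4 = 1 := by
    have h1 := hD (w 1 3)
    rw [d13, map_mul, map_mul, d24, d23, d14, one_mul] at h1
    exact hodd _ h1
  rw [e24] at d23 d13 d14
  simp only [one_mul] at d13
  have e14 : w 2 3 * w 1 4 = 1 := by
    have h1 := hD (w 1 2)
    rw [d12, map_mul, d23, d13, one_mul] at h1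
    exact h1
  have e14' : w 1 4 = 1 := by
    have h1 := hD (w 0 3)
    rw [d03, map_mul, map_mul, d14, d13, d04, one_mul, e14, one_mul] at h1
    exact h1
  rw [e14', mul_one] at e14
  exact ⟨e34, e24, e14⟩


/-- A square-zero criterion: a nilpotent endomorphism `D` of a commutative `p`-group with kernel of
index at most `p`. -/
lemma sq_zero {p : ℕ} [Fact p.Prime] {M : Type*} [Group M] [Finite M] (hM : IsPGroup p M) (D : M →* M)
    (hnil : ∀ z : M, ∃ n : ℕ, D^[n] z = 1) (C : Subgroup M) (hC : C ≤ D.ker)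
    (hcard : Nat.card M ≤ p * Nat.card C) (z : M) : D (D z) = 1 := by
  classical
  have hp : p.Prime := Fact.out
  by_cases hw1 : D z = 1
  · rw [hw1, map_one]
  -- the range has order at most `p`
  have hI : Nat.card D.range ≤ p := by
    have h1 : Nat.card D.ker * Nat.card D.range = Nat.card M := by
      have := Subgroup.card_mul_index D.ker
      rwa [Subgroup.index_ker] at this
    have h2 : Nat.card C ≤ Nat.card D.ker := Subgroup.card_le_of_le hC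
    have h3 : 0 < Nat.card C := Nat.card_pos
    have h4 : Nat.card C * Nat.card D.range ≤ p * Nat.card C := by
      calc Nat.card C * Nat.card D.range ≤ Nat.card D.ker * Nat.card D.range :=
            Nat.mul_le_mul_right _ h2
        _ = Nat.card M := h1
        _ ≤ _ := hcard
    rw [mul_comm p] at h4
    exact Nat.le_of_mul_le_mul_left h4 h3
  -- a fixed nontrivial element in the range
  obtain ⟨n, hn⟩ := hnil (D z)
  have hex : ∃ n : ℕ, D^[n] (D z) = 1 := ⟨n, hn⟩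
  have hf := Nat.find_spec hex
  have hf0 : Nat.find hex ≠ 0 := by
    intro h0
    rw [h0] at hf
    exact hw1 hf
  obtain ⟨l, hl⟩ := Nat.exists_eq_succ_of_ne_zero hf0
  have hne : D^[l] (D z) ≠ 1 := Nat.find_min hex (by omega)
  have ht1 : D (D^[l] (D z)) = 1 := by
    have e := Function.iterate_succ_apply' (⇑D) l (D z)
    rw [← e, ← hl]
    exact hf
  have htI : ∀ l : ℕ, D^[l] (D z) ∈ D.range := by
    intro l
    induction l with
    | zero => exact ⟨z, rfl⟩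
    | succ l _ =>
      rw [Function.iterate_succ_apply']
      exact ⟨_, rfl⟩
  have hle : Subgroup.zpowers (D^[l] (D z)) ≤ D.range := (Subgroup.zpowers_le).2 (htI l)
  have hcardt : p ≤ Nat.card (Subgroup.zpowers (D^[l] (D z))) := by
    rw [Nat.card_zpowers]
    obtain ⟨k, hk⟩ := (IsPGroup.iff_orderOf.1 hM) (D^[l] (D z))
    rw [hk]
    have hk0 : k ≠ 0 := by
      intro h0
      rw [h0, pow_zero, orderOf_eq_one_iff] at hk
      exact hne hk
    calc p = p ^ 1 := (pow_one p).symm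
      _ ≤ p ^ k := Nat.pow_le_pow_right hp.pos (Nat.one_le_iff_ne_zero.2 hk0)
  have heq : Subgroup.zpowers (D^[l] (D z)) = D.range :=
    Subgroup.eq_of_le_of_card_ge hle (hI.trans hcardt)
  have hwmem : D z ∈ Subgroup.zpowers (D^[l] (D z)) := by
    rw [heq]
    exact ⟨z, rfl⟩
  obtain ⟨k, hk⟩ := Subgroup.mem_zpowers_iff.1 hwmem
  rw [← hk, map_zpow, ht1, one_zpow]

variable {G : Type u} [Group G] [Finite G] {p : ℕ} [Fact p.Prime]

/-- Iterated commutators with a fixed element of a `p`-group eventually vanish. -/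
lemma exists_iter_eq_one {S : Subgroup G} (hS : IsPGroup p S) {a y : G} (ha : a ∈ S) (hy : y ∈ S) :
    ∃ n : ℕ, (fun z => ⁅a, z⁆)^[n] y = 1 := by
  have hnil : Group.IsNilpotent S := hS.isNilpotent
  obtain ⟨n, hn⟩ := Subgroup.nilpotent_iff_lowerCentralSeries.1 hnil
  have key : ∀ (i : ℕ) (z : G) (hz : z ∈ S), ∃ hz' : (fun z => ⁅a, z⁆)^[i] z ∈ S,
      (⟨_, hz'⟩ : S) ∈ (⊤ : Subgroup S).lowerCentralSeries i := by
    intro i z hz
    induction i with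
    | zero =>
      exact ⟨hz, by simp⟩
    | succ i ih =>
      obtain ⟨h1, h2⟩ := ih
      rw [Function.iterate_succ_apply']
      have h3 : ⁅a, (fun z => ⁅a, z⁆)^[i] z⁆ ∈ S := by
        rw [commutatorElement_def]
        exact mul_mem (mul_mem (mul_mem ha h1) (inv_mem ha)) (inv_mem h1)
      refine ⟨h3, ?_⟩
      have h4 : (⟨⁅a, (fun z => ⁅a, z⁆)^[i] z⁆, h3⟩ : S) = ⁅(⟨_, h1⟩ : S), (⟨a, ha⟩ : S)⁆⁻¹ := by
        apply Subtype.ext
        simp only [commutatorElement_def, coe_inv, coe_mul]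
        group
      rw [h4]
      refine inv_mem ?_
      rw [Subgroup.lowerCentralSeries_succ]
      exact Subgroup.commutator_mem_commutator h2 (mem_top _)
  obtain ⟨h1, h2⟩ := key n y hy
  rw [hn, Subgroup.mem_bot] at h2
  exact ⟨n, congrArg Subtype.val h2⟩

/-- The hypotheses of the bound. -/
structure CoreData (p : ℕ) (S A A₁ B Y : Subgroup G) (a : G) : Prop where
  hS : IsPGroup p S
  hA : IsMaxIn 0 S A
  hA₁ : A₁ ≤ A
  ha : a ∈ A
  hcard : Nat.card A = p * Nat.card A₁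
  hBS : B ≤ S
  hYB : Y ≤ B
  haB : ∀ y ∈ B, a * y * a⁻¹ ∈ B
  haY : ∀ y ∈ Y, a * y * a⁻¹ ∈ Y
  hZ : ∀ y ∈ Y, ∀ x ∈ B, y * x = x * y
  hBB : ∀ x ∈ B, ∀ x' ∈ B, ⁅x, x'⁆ ∈ Y
  hdB : ∀ d ∈ A₁, ∀ x ∈ B, ⁅d, x⁆ ∈ Y

/-- Subgroups whose elements commute: the order of the join. -/
lemma card_sup_mul_card_inf_of_comm {H K : Subgroup G} (hc : ∀ h ∈ H, ∀ k ∈ K, h * k = k * h) :
    Nat.card (H ⊔ K : Subgroup G) * Nat.card (H ⊓ K : Subgroup G) = Nat.card H * Nat.card K := by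
  refine Cfsg.Agent.Lib.QuadAct.Basic.card_sup_mul_card_inf_of_le_normalizer H K ?_
  intro h hh
  rw [mem_normalizer_iff]
  intro k
  constructor
  · intro hk
    rw [hc h hh k hk, mul_inv_cancel_right]
    exact hk
  · intro hk
    have h1 := hc h hh _ hk
    have h2 : h * k * h⁻¹ * h = h * k := by group
    have h3 : h * k * h⁻¹ = k := mul_left_cancel (h1.trans h2)
    rwa [h3] at hk

/-- Proper inclusions of `p`-groups. -/
lemma mul_card_le_of_lt {H K : Subgroup G} (hK : IsPGroup p K) (h : H < K) :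
    p * Nat.card H ≤ Nat.card K := by
  have hp : p.Prime := Fact.out
  have h1 : Nat.card H ∣ Nat.card K := Subgroup.card_dvd_of_le h.le
  obtain ⟨c, hc⟩ := h1
  have h2 : c ≠ 1 := by
    intro h1
    rw [h1, mul_one] at hc
    exact absurd (Cfsg.Agent.Lib.PGroups.Basic.card_lt_of_lt h) (by omega)
  obtain ⟨n, hn⟩ := IsPGroup.iff_card.1 hK
  have h3 : c ∣ p ^ n := by
    rw [← hn, hc]
    exact dvd_mul_left _ _
  obtain ⟨m, hm, rfl⟩ := (Nat.dvd_prime_pow hp).1 h3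
  have hm0 : m ≠ 0 := by
    intro h0
    rw [h0, pow_zero] at h2
    exact h2 rfl
  have h4 : p ≤ p ^ m := by
    calc p = p ^ 1 := (pow_one p).symm
      _ ≤ p ^ m := Nat.pow_le_pow_right hp.pos (Nat.one_le_iff_ne_zero.2 hm0)
  rw [hc, mul_comm p]
  exact Nat.mul_le_mul_left _ h4

/-- Commutators in a section of class two. -/
lemma comm_mul_left_of {x y z : G} (h : Commute x ⁅y, z⁆) : ⁅x * y, z⁆ = ⁅y, z⁆ * ⁅x, z⁆ := by
  have e : ⁅x * y, z⁆ = x * ⁅y, z⁆ * x⁻¹ * ⁅x, z⁆ := by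
    simp only [commutatorElement_def]
    group
  rw [e, h.eq, mul_inv_cancel_right]

lemma comm_mul_right_of {x y z : G} (h : Commute y ⁅x, z⁆) : ⁅x, y * z⁆ = ⁅x, y⁆ * ⁅x, z⁆ := by
  have e : ⁅x, y * z⁆ = ⁅x, y⁆ * (y * ⁅x, z⁆ * y⁻¹) := by
    simp only [commutatorElement_def]
    group
  rw [e, h.eq, mul_inv_cancel_right]

namespace CoreData

variable {S A A₁ B Y : Subgroup G} {a : G}

lemma hAc (h : CoreData p S A A₁ B Y a) {u v : G} (hu : u ∈ A) (hv : v ∈ A) : u * v = v * u :=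
  h.hA.2.1.comm hu hv

lemma hYcomm (h : CoreData p S A A₁ B Y a) {u v : G} (hu : u ∈ Y) (hv : v ∈ Y) : u * v = v * u :=
  h.hZ u hu v (h.hYB hv)

lemma hcommY (h : CoreData p S A A₁ B Y a) {x y : G} (hx : x ∈ B) (hy : y ∈ Y) : Commute x y :=
  (h.hZ y hy x hx).symm

lemma hcomm_comm (h : CoreData p S A A₁ B Y a) {u v w : G} (hu : u ∈ B) (hv : v ∈ B) (hw : w ∈ B) :
    Commute u ⁅v, w⁆ :=
  h.hcommY hu (h.hBB v hv w hw)

lemma comm_mul_left (h : CoreData p S A A₁ B Y a) {u v w : G} (hu : u ∈ B) (hv : v ∈ B) (hw : w ∈ B) :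
    ⁅u * v, w⁆ = ⁅v, w⁆ * ⁅u, w⁆ :=
  comm_mul_left_of (h.hcomm_comm hu hv hw)

lemma comm_mul_right (h : CoreData p S A A₁ B Y a) {u v w : G} (hu : u ∈ B) (hv : v ∈ B) (hw : w ∈ B) :
    ⁅u, v * w⁆ = ⁅u, v⁆ * ⁅u, w⁆ :=
  comm_mul_right_of (h.hcomm_comm hv hu hw)

lemma dl_mem (h : CoreData p S A A₁ B Y a) {y : G} (hy : y ∈ B) : ⁅a, y⁆ ∈ B := by
  rw [commutatorElement_def]
  exact mul_mem (h.haB y hy) (inv_mem hy)

lemma conj_eq (a y : G) : a * y * a⁻¹ = ⁅a, y⁆ * y := by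
  rw [commutatorElement_def]
  group

/-- The conjugate of a commutator. -/
lemma dl_comm (h : CoreData p S A A₁ B Y a) {u v : G} (hu : u ∈ B) (hv : v ∈ B) :
    ⁅a, ⁅u, v⁆⁆ = ⁅⁅a, u⁆, ⁅a, v⁆⁆ * ⁅⁅a, u⁆, v⁆ * ⁅u, ⁅a, v⁆⁆ := by
  have hp := h.dl_mem hu
  have hq := h.dl_mem hv
  have e1 : a * ⁅u, v⁆ * a⁻¹ = ⁅a * u * a⁻¹, a * v * a⁻¹⁆ := by
    simp only [commutatorElement_def]
    group
  have e2 : ⁅a * u * a⁻¹, a * v * a⁻¹⁆ = ⁅u, v⁆ * ⁅⁅a, u⁆, v⁆ * (⁅u, ⁅a, v⁆⁆ * ⁅⁅a, u⁆, ⁅a, v⁆⁆) := by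
    rw [conj_eq, conj_eq, h.comm_mul_left hp hu (mul_mem hq hv), h.comm_mul_right hu hq hv,
      h.comm_mul_right hp hq hv]
    have c1 := h.hBB _ hu _ hv
    have c2 := h.hBB _ hp _ hv
    have c3 := h.hBB _ hu _ hq
    have c4 := h.hBB _ hp _ hq
    calc ⁅u, ⁅a, v⁆⁆ * ⁅u, v⁆ * (⁅⁅a, u⁆, ⁅a, v⁆⁆ * ⁅⁅a, u⁆, v⁆)
        = ⁅u, v⁆ * ⁅u, ⁅a, v⁆⁆ * (⁅⁅a, u⁆, ⁅a, v⁆⁆ * ⁅⁅a, u⁆, v⁆) := by rw [h.hYcomm c3 c1]
      _ = ⁅u, v⁆ * (⁅u, ⁅a, v⁆⁆ * (⁅⁅a, u⁆, ⁅a, v⁆⁆ * ⁅⁅a, u⁆, v⁆)) := by group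
      _ = ⁅u, v⁆ * (⁅u, ⁅a, v⁆⁆ * (⁅⁅a, u⁆, v⁆ * ⁅⁅a, u⁆, ⁅a, v⁆⁆)) := by rw [h.hYcomm c4 c2]
      _ = ⁅u, v⁆ * (⁅⁅a, u⁆, v⁆ * (⁅u, ⁅a, v⁆⁆ * ⁅⁅a, u⁆, ⁅a, v⁆⁆)) := by
          rw [← mul_assoc ⁅u, ⁅a, v⁆⁆, h.hYcomm c3 c2, mul_assoc ⁅⁅a, u⁆, v⁆]
      _ = _ := by group
  have c1 := h.hBB _ hu _ hv
  have c2 := h.hBB _ (h.dl_mem hu) _ hv
  have c3 := h.hBB _ hu _ (h.dl_mem hv)
  have c4 := h.hBB _ (h.dl_mem hu) _ (h.dl_mem hv)
  have e3 : ⁅a, ⁅u, v⁆⁆ = a * ⁅u, v⁆ * a⁻¹ * ⁅u, v⁆⁻¹ := commutatorElement_def _ _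
  rw [e3, e1, e2]
  calc ⁅u, v⁆ * ⁅⁅a, u⁆, v⁆ * (⁅u, ⁅a, v⁆⁆ * ⁅⁅a, u⁆, ⁅a, v⁆⁆) * ⁅u, v⁆⁻¹
      = ⁅u, v⁆ * (⁅⁅a, u⁆, v⁆ * (⁅u, ⁅a, v⁆⁆ * ⁅⁅a, u⁆, ⁅a, v⁆⁆)) * ⁅u, v⁆⁻¹ := by group
    _ = ⁅⁅a, u⁆, v⁆ * (⁅u, ⁅a, v⁆⁆ * ⁅⁅a, u⁆, ⁅a, v⁆⁆) := by
        rw [h.hYcomm c1 (mul_mem c2 (mul_mem c3 c4)), mul_inv_cancel_right]
    _ = ⁅⁅a, u⁆, ⁅a, v⁆⁆ * ⁅⁅a, u⁆, v⁆ * ⁅u, ⁅a, v⁆⁆ := by
        rw [h.hYcomm c3 c4, ← mul_assoc, h.hYcomm c2 c4]

/-- Abelian subgroups of `S` commuting with subgroups of `A`. -/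
lemma card_bound (h : CoreData p S A A₁ B Y a) {T K : Subgroup G} (hT : T ≤ S) (hK : K ≤ A)
    (hTab : ∀ u ∈ T, ∀ v ∈ T, u * v = v * u) (hTK : ∀ u ∈ T, ∀ k ∈ K, u * k = k * u) :
    Nat.card T * Nat.card K ≤ Nat.card A * Nat.card (T ⊓ K : Subgroup G) := by
  rw [← card_sup_mul_card_inf_of_comm hTK]
  apply Nat.mul_le_mul_right
  exact h.hA.2.2 (T ⊔ K) (sup_le hT (hK.trans h.hA.1))
    (IsAbExp.sup (isAbExp_iff.2 ⟨hTab, by simp⟩) (h.hA.2.1.mono hK) hTK)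

/-- `Y ∩ C(A₁)`. -/
def W (A₁ Y : Subgroup G) : Subgroup G := Y ⊓ centralizer (A₁ : Set G)

lemma comm_comm_central (h : CoreData p S A A₁ B Y a) {c c' u v : G} (hc : c ∈ Y) (hc' : c' ∈ Y)
    (hu : u ∈ B) (hv : v ∈ B) : ⁅c * u, c' * v⁆ = ⁅u, v⁆ := by
  have hcB := h.hYB hc
  have hcB' := h.hYB hc'
  rw [h.comm_mul_left hcB hu (mul_mem hcB' hv), h.comm_mul_right hu hcB' hv]
  have e1 : ⁅u, c'⁆ = 1 := by
    rw [commutatorElement_eq_one_iff_mul_comm]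
    exact (h.hZ c' hc' u hu).symm
  have e2 : ⁅c, c' * v⁆ = 1 := by
    rw [commutatorElement_eq_one_iff_mul_comm]
    exact h.hZ c hc _ (mul_mem hcB' hv)
  rw [e1, e2, one_mul, mul_one]

lemma comm_mem_W (h : CoreData p S A A₁ B Y a) {u v : G} (hu : u ∈ B) (hv : v ∈ B) :
    ⁅u, v⁆ ∈ W A₁ Y := by
  refine Subgroup.mem_inf.2 ⟨h.hBB u hu v hv, ?_⟩
  rw [mem_centralizer_iff]
  intro d hd
  have e : d * ⁅u, v⁆ * d⁻¹ = ⁅d * u * d⁻¹, d * v * d⁻¹⁆ := by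
    simp only [commutatorElement_def]
    group
  rw [conj_eq d u, conj_eq d v, h.comm_comm_central (h.hdB d hd u hu) (h.hdB d hd v hv) hu hv] at e
  exact mul_inv_eq_iff_eq_mul.1 e

lemma dl_mem_W (h : CoreData p S A A₁ B Y a) {z : G} (hz : z ∈ W A₁ Y) : ⁅a, z⁆ ∈ W A₁ Y := by
  refine Subgroup.mem_inf.2 ⟨?_, ?_⟩
  · rw [commutatorElement_def]
    exact mul_mem (h.haY z hz.1) (inv_mem hz.1)
  · rw [mem_centralizer_iff]
    intro d hd
    have c1 : Commute d a := h.hAc (h.hA₁ hd) h.ha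
    have c2 : Commute d z := (mem_centralizer_iff.1 (Subgroup.mem_inf.1 hz).2) d hd
    rw [commutatorElement_def]
    exact ((c1.mul_right c2).mul_right c1.inv_right).mul_right c2.inv_right

/-- The commutator with `a` as an endomorphism of `Y ∩ C(A₁)`. -/
def DW (h : CoreData p S A A₁ B Y a) : W A₁ Y →* W A₁ Y :=
  MonoidHom.mk' (fun z => ⟨⁅a, z.1⁆, h.dl_mem_W z.2⟩) (by
    rintro ⟨z, hz⟩ ⟨z', hz'⟩
    apply Subtype.ext
    exact comm_mul_right_of (show Commute z ⁅a, z'⁆ from h.hYcomm hz.1 (h.dl_mem_W hz').1))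

lemma DW_iter (h : CoreData p S A A₁ B Y a) (n : ℕ) (z : W A₁ Y) :
    ((h.DW)^[n] z).1 = (fun z => ⁅a, z⁆)^[n] z.1 := by
  induction n with
  | zero => rfl
  | succ n ih =>
    rw [Function.iterate_succ_apply', Function.iterate_succ_apply', ← ih]
    rfl

lemma W_le (h : CoreData p S A A₁ B Y a) : W A₁ Y ≤ S :=
  inf_le_left.trans (h.hYB.trans h.hBS)

lemma DW_sq (h : CoreData p S A A₁ B Y a) (z : W A₁ Y) : h.DW (h.DW z) = 1 := by
  have hp : p.Prime := Fact.out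
  have hWS := h.W_le
  have hMp : IsPGroup p (W A₁ Y) := h.hS.to_le hWS
  refine sq_zero hMp h.DW ?_ (A₁.subgroupOf (W A₁ Y)) ?_ ?_ z
  · intro z
    obtain ⟨n, hn⟩ := exists_iter_eq_one h.hS (h.hA.1 h.ha) (hWS z.2)
    refine ⟨n, Subtype.ext ?_⟩
    rw [h.DW_iter, hn]
    rfl
  · rintro ⟨z, hz⟩ hz'
    rw [MonoidHom.mem_ker]
    apply Subtype.ext
    have hz'' : z ∈ A₁ := hz'
    have : ⁅a, z⁆ = 1 := by
      rw [commutatorElement_eq_one_iff_mul_comm]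
      exact h.hAc h.ha (h.hA₁ hz'')
    exact this
  · have h1 := h.card_bound (T := W A₁ Y) (K := A₁) hWS h.hA₁
      (fun u hu v hv => h.hYcomm hu.1 hv.1)
      (fun u hu k hk => ((mem_centralizer_iff.1 (Subgroup.mem_inf.1 hu).2) k hk).symm)
    rw [h.hcard] at h1
    have h2 : Nat.card (A₁.subgroupOf (W A₁ Y)) = Nat.card (W A₁ Y ⊓ A₁ : Subgroup G) :=
      Nat.card_congr
        { toFun := fun x => ⟨x.1.1, ⟨x.1.2, x.2⟩⟩
          invFun := fun x => ⟨⟨x.1, x.2.1⟩, x.2.2⟩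
          left_inv := fun _ => rfl
          right_inv := fun _ => rfl }
    rw [h2]
    have h3 : 0 < Nat.card A₁ := Nat.card_pos
    have h4 : Nat.card A₁ * Nat.card (W A₁ Y) ≤ Nat.card A₁ * (p * Nat.card (W A₁ Y ⊓ A₁ : Subgroup G)) := by
      calc _ = Nat.card (W A₁ Y) * Nat.card A₁ := mul_comm _ _
        _ ≤ p * Nat.card A₁ * Nat.card (W A₁ Y ⊓ A₁ : Subgroup G) := h1
        _ = _ := by ring
    exact Nat.le_of_mul_le_mul_left h4 h3

/-- The iterated commutators. -/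
def X (a x : G) (i : ℕ) : G := (fun z => ⁅a, z⁆)^[i] x

lemma X_succ (a x : G) (i : ℕ) : X a x (i + 1) = ⁅a, X a x i⁆ :=
  Function.iterate_succ_apply' _ _ _

lemma X_mem (h : CoreData p S A A₁ B Y a) {x : G} (hx : x ∈ B) (i : ℕ) : X a x i ∈ B := by
  induction i with
  | zero => exact hx
  | succ i ih =>
    rw [X_succ]
    exact h.dl_mem ih

lemma eq_one_of_mul_self_of_pGroup {M : Type*} [Group M] [Finite M] (hM : IsPGroup p M)
    (hodd : p ≠ 2) (z : M) (hz : z * z = 1) : z = 1 := by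
  have hp : p.Prime := Fact.out
  obtain ⟨k, hk⟩ := (IsPGroup.iff_orderOf.1 hM) z
  have h1 : orderOf z ∣ 2 := orderOf_dvd_of_pow_eq_one (by rw [sq, hz])
  rw [hk] at h1
  have h2 : k = 0 := by
    by_contra h0
    have h3 : p ∣ 2 := (dvd_pow_self p h0).trans h1
    exact hodd ((Nat.prime_dvd_prime_iff_eq hp Nat.prime_two).1 h3)
  rw [h2, pow_zero, orderOf_eq_one_iff] at hk
  exact hk

/-- The two elements `X 2` and `X 3` commute. -/
lemma comm23 (h : CoreData p S A A₁ B Y a) (hodd : p ≠ 2) {x : G} (hx : x ∈ B)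
    (h5 : X a x 5 ∈ Y) : X a x 2 * X a x 3 = X a x 3 * X a x 2 := by
  have hM : IsPGroup p (W A₁ Y) := h.hS.to_le h.W_le
  let w : ℕ → ℕ → W A₁ Y := fun i j =>
    ⟨⁅X a x i, X a x j⁆, h.comm_mem_W (h.X_mem hx i) (h.X_mem hx j)⟩
  have key := tail_eq_one h.DW h.DW_sq (eq_one_of_mul_self_of_pGroup hM hodd) w ?_ ?_ ?_
  · have e := congrArg Subtype.val key.2.2
    exact commutatorElement_eq_one_iff_mul_comm.1 e
  · intro i j
    apply Subtype.ext
    change ⁅a, ⁅X a x i, X a x j⁆⁆ = ⁅X a x (i + 1), X a x (j + 1)⁆ * ⁅X a x (i + 1), X a x j⁆ *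
      ⁅X a x i, X a x (j + 1)⁆
    rw [X_succ, X_succ]
    exact h.dl_comm (h.X_mem hx i) (h.X_mem hx j)
  · intro i
    apply Subtype.ext
    exact commutatorElement_self _
  · intro i
    apply Subtype.ext
    exact commutatorElement_eq_one_iff_mul_comm.2 (h.hZ _ h5 _ (h.X_mem hx i)).symm

/-- The formula for commutators with a product. -/
lemma comm_mul_eq (u v x : G) : ⁅u * v, x⁆ = u * ⁅v, x⁆ * u⁻¹ * ⁅u, x⁆ := by
  simp only [commutatorElement_def]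
  group

/-- `D_s`: the elements of `A₁` with `[d, x] ∈ A`. -/
def Ds (A A₁ : Subgroup G) (hA₁ : A₁ ≤ A) (x : G) : Subgroup G where
  carrier := {d | d ∈ A₁ ∧ ⁅d, x⁆ ∈ A}
  mul_mem' := by
    rintro d d' ⟨hd, hdt⟩ ⟨hd', hdt'⟩
    refine ⟨mul_mem hd hd', ?_⟩
    rw [comm_mul_eq]
    exact mul_mem (mul_mem (mul_mem (hA₁ hd) hdt') (inv_mem (hA₁ hd))) hdt
  one_mem' := ⟨one_mem _, by simp⟩
  inv_mem' := by
    rintro d ⟨hd, hdt⟩
    refine ⟨inv_mem hd, ?_⟩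
    have e : ⁅d⁻¹, x⁆ = d⁻¹ * ⁅d, x⁆⁻¹ * d := by
      simp only [commutatorElement_def]
      group
    rw [e]
    exact mul_mem (mul_mem (inv_mem (hA₁ hd)) (inv_mem hdt)) (hA₁ hd)

/-- `L`: the subgroup generated by the commutators with `A₁`. -/
def Lc (A₁ : Subgroup G) (x : G) : Subgroup G := closure ((fun d => ⁅d, x⁆) '' (A₁ : Set G))

lemma Lc_le (h : CoreData p S A A₁ B Y a) {x : G} (hx : x ∈ B) : Lc A₁ x ≤ Y := by
  rw [Lc, closure_le]
  rintro _ ⟨d, hd, rfl⟩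
  exact h.hdB d hd x hx

lemma Ds_comm_theta (h : CoreData p S A A₁ B Y a) {x : G} (hx : x ∈ B) {d d' : G}
    (hd : d ∈ Ds A A₁ h.hA₁ x) (hd' : d' ∈ A₁) : d * ⁅d', x⁆ = ⁅d', x⁆ * d := by
  obtain ⟨hd1, hd2⟩ := hd
  have e1 : d * d' = d' * d := h.hAc (h.hA₁ hd1) (h.hA₁ hd')
  have e2 := comm_mul_eq d d' x
  have e3 := comm_mul_eq d' d x
  rw [e1, e3] at e2
  have c1 : d' * ⁅d, x⁆ * d'⁻¹ = ⁅d, x⁆ := by
    rw [h.hAc (h.hA₁ hd') hd2, mul_inv_cancel_right]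
  rw [c1, h.hYcomm (h.hdB d hd1 x hx) (h.hdB d' hd' x hx)] at e2
  have e4 := mul_right_cancel e2
  exact mul_inv_eq_iff_eq_mul.1 e4.symm

lemma Ds_comm_L (h : CoreData p S A A₁ B Y a) {x : G} (hx : x ∈ B) {d y : G}
    (hd : d ∈ Ds A A₁ h.hA₁ x) (hy : y ∈ Lc A₁ x) : d * y = y * d := by
  have h1 : Lc A₁ x ≤ centralizer ({d} : Set G) := by
    rw [Lc, closure_le]
    rintro _ ⟨d', hd', rfl⟩
    rw [SetLike.mem_coe, mem_centralizer_iff]
    rintro _ rfl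
    exact h.Ds_comm_theta hx hd hd'
  exact (mem_centralizer_iff.1 (h1 hy)) d rfl

lemma Ds_comm_X2 (h : CoreData p S A A₁ B Y a) {x : G} (hx : x ∈ B) {d : G}
    (hd : d ∈ Ds A A₁ h.hA₁ x) : d * ⁅a, x⁆ = ⁅a, x⁆ * d := by
  obtain ⟨hd1, hd2⟩ := hd
  have c1 : Commute d a := h.hAc (h.hA₁ hd1) h.ha
  set t := ⁅d, x⁆ with ht
  have htY : t ∈ Y := h.hdB d hd1 x hx
  have e : d * ⁅a, x⁆ * d⁻¹ = ⁅d * a * d⁻¹, d * x * d⁻¹⁆ := by
    simp only [commutatorElement_def]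
    group
  rw [c1.eq, mul_inv_cancel_right, conj_eq d x, ← ht] at e
  have e2 : ⁅a, t * x⁆ = ⁅a, x⁆ := by
    have e3 : ⁅a, t * x⁆ = ⁅a, t⁆ * (t * ⁅a, x⁆ * t⁻¹) := by
      simp only [commutatorElement_def]
      group
    have e4 : ⁅a, t⁆ = 1 := commutatorElement_eq_one_iff_mul_comm.2 (h.hAc h.ha hd2)
    rw [e3, e4, one_mul, h.hZ t htY _ (h.dl_mem hx), mul_inv_cancel_right]
  rw [e2] at e
  exact mul_inv_eq_iff_eq_mul.1 e

/-- The step of the filtration of `B / Y` defined by `a`. -/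
def step (h : CoreData p S A A₁ B Y a) (T : Subgroup G) (hT : Y ≤ T) : Subgroup G where
  carrier := {y | y ∈ B ∧ ⁅a, y⁆ ∈ T}
  mul_mem' := by
    rintro y y' ⟨hy, hyt⟩ ⟨hy', hyt'⟩
    refine ⟨mul_mem hy hy', ?_⟩
    have e : ⁅a, y * y'⁆ = ⁅a, y⁆ * ⁅y, ⁅a, y'⁆⁆ * ⁅a, y'⁆ := by
      simp only [commutatorElement_def]
      group
    rw [e]
    exact mul_mem (mul_mem hyt (hT (h.hBB _ hy _ (h.dl_mem hy')))) hyt'
  one_mem' := ⟨one_mem _, by simp⟩
  inv_mem' := by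
    rintro y ⟨hy, hyt⟩
    refine ⟨inv_mem hy, ?_⟩
    have e : ⁅a, y⁻¹⁆ = ⁅y⁻¹, ⁅a, y⁆⁻¹⁆ * ⁅a, y⁆⁻¹ := by
      simp only [commutatorElement_def]
      group
    rw [e]
    exact mul_mem (hT (h.hBB _ (inv_mem hy) _ (inv_mem (h.dl_mem hy)))) (inv_mem hyt)

lemma dl_mem_Y (h : CoreData p S A A₁ B Y a) {y : G} (hy : y ∈ Y) : ⁅a, y⁆ ∈ Y := by
  rw [commutatorElement_def]
  exact mul_mem (h.haY y hy) (inv_mem hy)

lemma Y_le_step (h : CoreData p S A A₁ B Y a) : Y ≤ h.step Y le_rfl :=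
  fun _ hy => ⟨h.hYB hy, h.dl_mem_Y hy⟩

/-- A subgroup of `G` of the form `I`. -/
def Ic (A₁ : Subgroup G) (a x : G) : Subgroup G :=
  closure ({X a x 2, X a x 3} ∪ (Lc A₁ (X a x 1) : Set G))

lemma closure_comm {k : Set G} (hk : ∀ x ∈ k, ∀ y ∈ k, x * y = y * x) :
    ∀ x ∈ closure k, ∀ y ∈ closure k, x * y = y * x := by
  have h1 : closure k ≤ centralizer k :=
    (closure_le _).2 (fun x hx => mem_centralizer_iff.2 (fun y hy => hk y hy x hx))
  have h2 : closure k ≤ centralizer (closure k : Set G) :=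
    (closure_le _).2 (fun x hx => mem_centralizer_iff.2 (fun y hy =>
      ((mem_centralizer_iff.1 (h1 hy)) x hx).symm))
  intro x hx y hy
  exact (mem_centralizer_iff.1 (h2 hy)) x hx

lemma Ic_comm (h : CoreData p S A A₁ B Y a) (hodd : p ≠ 2) {x : G} (hx : x ∈ B)
    (h5 : X a x 5 ∈ Y) : ∀ u ∈ Ic A₁ a x, ∀ v ∈ Ic A₁ a x, u * v = v * u := by
  refine closure_comm ?_
  have hL : ∀ y ∈ Lc A₁ (X a x 1), y ∈ Y := fun y hy => h.Lc_le (h.X_mem hx 1) hy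
  have h23 := h.comm23 hodd hx h5
  have h2 := h.X_mem hx 2
  have h3 := h.X_mem hx 3
  rintro u (hu | hu) v (hv | hv)
  · rcases hu with rfl | hu
    · rcases hv with rfl | hv
      · rfl
      · rw [Set.mem_singleton_iff] at hv
        rw [hv]
        exact h23
    · rw [Set.mem_singleton_iff] at hu
      rcases hv with rfl | hv
      · rw [hu]
        exact h23.symm
      · rw [Set.mem_singleton_iff] at hv
        rw [hu, hv]
  · have hv' := hL v hv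
    rcases hu with rfl | hu
    · exact (h.hZ v hv' _ h2).symm
    · rw [Set.mem_singleton_iff] at hu
      rw [hu]
      exact (h.hZ v hv' _ h3).symm
  · have hu' := hL u hu
    rcases hv with rfl | hv
    · exact h.hZ u hu' _ h2
    · rw [Set.mem_singleton_iff] at hv
      rw [hv]
      exact h.hZ u hu' _ h3
  · exact h.hYcomm (hL u hu) (hL v hv)

lemma Ic_le (h : CoreData p S A A₁ B Y a) {x : G} (hx : x ∈ B) : Ic A₁ a x ≤ B := by
  rw [Ic, closure_le]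
  rintro u (hu | hu)
  · rcases hu with rfl | hu
    · exact h.X_mem hx 2
    · rw [Set.mem_singleton_iff] at hu
      rw [hu]
      exact h.X_mem hx 3
  · exact h.hYB (h.Lc_le (h.X_mem hx 1) hu)

lemma Lc_le_Ic (A₁ : Subgroup G) (a x : G) : Lc A₁ (X a x 1) ≤ Ic A₁ a x :=
  (le_of_eq (closure_eq _).symm).trans (closure_mono Set.subset_union_right)

lemma X2_mem_Ic (A₁ : Subgroup G) (a x : G) : X a x 2 ∈ Ic A₁ a x :=
  subset_closure (Or.inl (Or.inl rfl))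

lemma X3_mem_Ic (A₁ : Subgroup G) (a x : G) : X a x 3 ∈ Ic A₁ a x :=
  subset_closure (Or.inl (Or.inr rfl))

/-- The elements of `D_s` centralize `I`. -/
lemma Ic_comm_Ds (h : CoreData p S A A₁ B Y a) {x : G} (hx : x ∈ B) :
    ∀ u ∈ Ic A₁ a x, ∀ k ∈ Ds A A₁ h.hA₁ (X a x 1), u * k = k * u := by
  intro u hu d hd
  have hx1 := h.X_mem hx 1
  have h1 : Ic A₁ a x ≤ centralizer ({d} : Set G) := by
    rw [Ic, closure_le]
    have c1 : Commute d a := h.hAc (h.hA₁ hd.1) h.ha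
    have c2 : Commute d (X a x 2) := by
      rw [X_succ]
      exact h.Ds_comm_X2 hx1 hd
    have c3 : Commute d (X a x 3) := by
      rw [X_succ, commutatorElement_def]
      exact ((c1.mul_right c2).mul_right c1.inv_right).mul_right c2.inv_right
    rintro u (hu | hu)
    · rw [SetLike.mem_coe, mem_centralizer_iff]
      rintro _ rfl
      rcases hu with rfl | hu
      · exact c2
      · rw [Set.mem_singleton_iff] at hu
        rw [hu]
        exact c3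
    · rw [SetLike.mem_coe, mem_centralizer_iff]
      rintro _ rfl
      exact h.Ds_comm_L hx1 hd hu
  exact ((mem_centralizer_iff.1 (h1 hu)) d rfl).symm

/-- The injection of cosets. -/
lemma card_mul_le_of_crossed {H D T U : Subgroup G} (hDH : D ≤ H) (hUT : U ≤ T) (f : G → G)
    (hf : ∀ g ∈ H, f g ∈ T) (hfU : ∀ g ∈ H, ∀ g' ∈ H, (f g)⁻¹ * f g' ∈ U → g⁻¹ * g' ∈ D) :
    Nat.card H * Nat.card U ≤ Nat.card D * Nat.card T := by
  classical
  let F : H ⧸ (D.subgroupOf H) → T ⧸ (U.subgroupOf T) :=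
    fun q => QuotientGroup.mk ⟨f q.out.1, hf _ q.out.2⟩
  have hF : Function.Injective F := by
    intro q q' hq
    have h1 := QuotientGroup.eq.1 hq
    rw [mem_subgroupOf] at h1
    have h2 : q.out⁻¹ * q'.out ∈ D.subgroupOf H := by
      rw [mem_subgroupOf]
      exact hfU _ q.out.2 _ q'.out.2 h1
    have h3 : (QuotientGroup.mk q.out : H ⧸ (D.subgroupOf H)) = QuotientGroup.mk q'.out :=
      QuotientGroup.eq.2 h2
    rwa [QuotientGroup.out_eq', QuotientGroup.out_eq'] at h3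
  have h1 := Nat.card_le_card_of_injective F hF
  have h2 := Subgroup.card_eq_card_quotient_mul_card_subgroup (D.subgroupOf H)
  have h3 := Subgroup.card_eq_card_quotient_mul_card_subgroup (U.subgroupOf T)
  have h4 : Nat.card (D.subgroupOf H) = Nat.card D :=
    Nat.card_congr (Subgroup.subgroupOfEquivOfLe hDH).toEquiv
  have h5 : Nat.card (U.subgroupOf T) = Nat.card U :=
    Nat.card_congr (Subgroup.subgroupOfEquivOfLe hUT).toEquiv
  rw [h4] at h2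
  rw [h5] at h3
  rw [h2, h3]
  calc _ = Nat.card (H ⧸ D.subgroupOf H) * (Nat.card D * Nat.card U) := by ring
    _ ≤ Nat.card (T ⧸ U.subgroupOf T) * (Nat.card D * Nat.card U) := Nat.mul_le_mul_right _ h1
    _ = _ := by ring

/-- The second count. -/
lemma card_Ds (h : CoreData p S A A₁ B Y a) {x : G} (hx : x ∈ B) :
    Nat.card A₁ * Nat.card (Lc A₁ x ⊓ A : Subgroup G) ≤
      Nat.card (Ds A A₁ h.hA₁ x) * Nat.card (Lc A₁ x) := by
  refine card_mul_le_of_crossed (fun _ hd => hd.1) inf_le_left (fun g => ⁅g, x⁆)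
    (fun g hg => subset_closure ⟨g, hg, rfl⟩) ?_
  intro g hg g' hg' hU
  refine ⟨mul_mem (inv_mem hg) hg', ?_⟩
  have hU' : ⁅g, x⁆⁻¹ * ⁅g', x⁆ ∈ A := hU.2
  have e : ⁅g⁻¹ * g', x⁆ = g⁻¹ * (⁅g', x⁆ * ⁅g, x⁆⁻¹) * g := by
    simp only [commutatorElement_def]
    group
  have hc : ⁅g', x⁆ * ⁅g, x⁆⁻¹ = ⁅g, x⁆⁻¹ * ⁅g', x⁆ :=
    h.hYcomm (h.hdB _ hg' x hx) (inv_mem (h.hdB _ hg x hx))
  rw [e, hc]
  exact mul_mem (mul_mem (inv_mem (h.hA₁ hg)) hU') (h.hA₁ hg)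

/-- The bound. -/
theorem false_of_block (h : CoreData p S A A₁ B Y a) (hodd : p ≠ 2) {x : G} (hx : x ∈ B)
    (h4 : X a x 4 ∉ Y) (h5 : X a x 5 ∈ Y) : False := by
  have hp : p.Prime := Fact.out
  have hx1 := h.X_mem hx 1
  set I := Ic A₁ a x with hI
  set L := Lc A₁ (X a x 1) with hL
  set Dd := Ds A A₁ h.hA₁ (X a x 1) with hDd
  have hIB : I ≤ B := h.Ic_le hx
  have hIS : I ≤ S := hIB.trans h.hBS
  have hIp : IsPGroup p I := h.hS.to_le hIS
  have hLI : L ≤ I := Lc_le_Ic A₁ a x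
  have hIc := h.Ic_comm hodd hx h5
  -- first count
  have c1 : Nat.card I * Nat.card Dd ≤ p * Nat.card A₁ * Nat.card (I ⊓ A : Subgroup G) := by
    have h1 := h.card_bound (T := I) (K := Dd) hIS (fun d hd => h.hA₁ hd.1) hIc (h.Ic_comm_Ds hx)
    rw [h.hcard] at h1
    refine h1.trans (Nat.mul_le_mul_left _ ?_)
    exact Subgroup.card_le_of_le (inf_le_inf_left _ (fun d hd => h.hA₁ hd.1))
  -- second count
  have c2 : Nat.card A₁ * Nat.card (L ⊓ A : Subgroup G) ≤ Nat.card Dd * Nat.card L := h.card_Ds hx1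
  -- third count
  set X' : Subgroup G := L ⊔ (I ⊓ A) with hX'
  have c3 : Nat.card X' * Nat.card (L ⊓ A : Subgroup G) = Nat.card L * Nat.card (I ⊓ A : Subgroup G) := by
    have h1 := card_sup_mul_card_inf_of_comm (H := L) (K := I ⊓ A)
      (fun u hu v hv => hIc u (hLI hu) v hv.1)
    have h2 : L ⊓ (I ⊓ A) = L ⊓ A := by
      rw [← inf_assoc, inf_eq_left.2 hLI]
    rwa [h2] at h1
  -- fourth count
  have hF1 : Y ≤ h.step Y le_rfl := h.Y_le_step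
  set F₁ := h.step Y le_rfl with hF₁
  set F₂ := h.step F₁ hF1 with hF₂
  have hF12 : F₁ ≤ F₂ := fun y hy => ⟨hy.1, hF1 hy.2⟩
  have h3F1 : X a x 3 ∉ F₁ := fun hh => h4 (by have := hh.2; rwa [← X_succ] at this)
  have h4F1 : X a x 4 ∈ F₁ := ⟨h.X_mem hx 4, by rw [← X_succ]; exact h5⟩
  have h3F2 : X a x 3 ∈ F₂ := ⟨h.X_mem hx 3, by rw [← X_succ]; exact h4F1⟩
  have h2F2 : X a x 2 ∉ F₂ := fun hh => h3F1 (by have := hh.2; rwa [← X_succ] at this)
  have hX'F : X' ≤ F₁ := by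
    refine sup_le ?_ ?_
    · exact (h.Lc_le hx1).trans hF1
    · intro y hy
      refine ⟨hIB hy.1, ?_⟩
      have : ⁅a, y⁆ = 1 := commutatorElement_eq_one_iff_mul_comm.2 (h.hAc h.ha hy.2)
      rw [this]
      exact one_mem _
  have hX'I : X' ≤ I := sup_le hLI inf_le_left
  set X'' : Subgroup G := X' ⊔ zpowers (X a x 3) with hX''
  have h3X'' : X a x 3 ∈ X'' := mem_sup_right (mem_zpowers _)
  have hX''F : X'' ≤ F₂ := by
    refine sup_le (hX'F.trans hF12) ?_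
    rw [zpowers_le]
    exact h3F2
  have hX''I : X'' ≤ I := by
    refine sup_le hX'I ?_
    rw [zpowers_le]
    exact X3_mem_Ic A₁ a x
  have l1 : X' < X'' := by
    refine lt_of_le_of_ne le_sup_left ?_
    intro e
    rw [← e] at h3X''
    exact h3F1 (hX'F h3X'')
  have l2 : X'' < I := by
    refine lt_of_le_of_ne hX''I ?_
    intro e
    have : X a x 2 ∈ X'' := by
      rw [e]
      exact X2_mem_Ic A₁ a x
    exact h2F2 (hX''F this)
  have c4 := mul_card_le_of_lt (hIp.to_le hX''I) l1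
  have c5 := mul_card_le_of_lt hIp l2
  -- combine
  have hp2 : 2 ≤ p := hp.two_le
  have hcx : 0 < Nat.card X' := Nat.card_pos
  have hcd : 0 < Nat.card Dd := Nat.card_pos
  have hcl : 0 < Nat.card (L ⊓ A : Subgroup G) := Nat.card_pos
  have c6 : p * (p * Nat.card X') ≤ Nat.card I := (Nat.mul_le_mul_left _ c4).trans c5
  have c7 : p * (p * Nat.card X') * Nat.card Dd ≤ p * (Nat.card A₁ * Nat.card (I ⊓ A : Subgroup G)) := by
    calc _ ≤ Nat.card I * Nat.card Dd := Nat.mul_le_mul_right _ c6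
      _ ≤ _ := c1
      _ = _ := by ring
  have c8 : p * Nat.card X' * Nat.card Dd ≤ Nat.card A₁ * Nat.card (I ⊓ A : Subgroup G) := by
    rw [mul_assoc p (p * _)] at c7
    exact Nat.le_of_mul_le_mul_left c7 hp.pos
  have c9 : p * (Nat.card X' * Nat.card Dd * Nat.card (L ⊓ A : Subgroup G)) ≤
      Nat.card X' * Nat.card Dd * Nat.card (L ⊓ A : Subgroup G) := by
    calc _ = p * Nat.card X' * Nat.card Dd * Nat.card (L ⊓ A : Subgroup G) := by ring
      _ ≤ Nat.card A₁ * Nat.card (I ⊓ A : Subgroup G) * Nat.card (L ⊓ A : Subgroup G) :=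
          Nat.mul_le_mul_right _ c8
      _ = (Nat.card A₁ * Nat.card (L ⊓ A : Subgroup G)) * Nat.card (I ⊓ A : Subgroup G) := by ring
      _ ≤ (Nat.card Dd * Nat.card L) * Nat.card (I ⊓ A : Subgroup G) := Nat.mul_le_mul_right _ c2
      _ = Nat.card Dd * (Nat.card L * Nat.card (I ⊓ A : Subgroup G)) := by ring
      _ = Nat.card Dd * (Nat.card X' * Nat.card (L ⊓ A : Subgroup G)) := by rw [c3]
      _ = _ := by ring
  have hpos : 0 < Nat.card X' * Nat.card Dd * Nat.card (L ⊓ A : Subgroup G) :=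
    Nat.mul_pos (Nat.mul_pos hcx hcd) hcl
  have c10 := Nat.mul_le_mul_right (Nat.card X' * Nat.card Dd * Nat.card (L ⊓ A : Subgroup G)) hp2
  omega

end CoreData

end Cfsg.Agent.Lib.Transfer.JCore
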