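import Mathlib
import Cfsg.Agent.Lib.Transfer.Flavell

/-!
# Iterated commutators with an automorphism (Flavell)

If `G` is finite, `α : Aut G` and `[G, α] = G`, then the values of the `k`-th iterate of
`c ↦ c * (α c)⁻¹` generate `G`.  We work in `G ⋊ ⟨α⟩`, with the map `x ↦ x a x⁻¹`: its periodic
points generate the normal closure of `a`.
-/

set_option autoImplicit false
set_option linter.style.haveILetI false
set_option linter.unusedSectionVars false

open scoped Pointwise

namespace Cfsg.Agent.Lib.Transfer.Flavell2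

open Cfsg.Agent.Lib.Subnormal.Basic Cfsg.Agent.Lib.Transfer.Flavell

universe u

section Periodic

variable {Γ : Type u} [Group Γ]

/-- The map `x ↦ x a x⁻¹`. -/
def ph (a x : Γ) : Γ := x * a * x⁻¹

/-- Its periodic points. -/
abbrev per (a : Γ) : Set Γ := Function.periodicPts (ph a)

theorem self_mem_per (a : Γ) : a ∈ per a := by
  refine ⟨1, one_pos, ?_⟩
  simp [Function.IsPeriodicPt, Function.IsFixedPt, ph]

/-- Every periodic point is the image of a periodic point. -/
theorem exists_pred {a x : Γ} (hx : x ∈ per a) : ∃ y ∈ per a, x = y * a * y⁻¹ := by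
  obtain ⟨n, hn, hper⟩ := hx
  obtain ⟨m, rfl⟩ : ∃ m, n = m + 1 := ⟨n - 1, by omega⟩
  refine ⟨(ph a)^[m] x, ?_, ?_⟩
  · refine ⟨m + 1, hn, ?_⟩
    show (ph a)^[m + 1] ((ph a)^[m] x) = (ph a)^[m] x
    rw [← Function.iterate_add_apply, add_comm, Function.iterate_add_apply]
    rw [show (ph a)^[m + 1] x = x from hper]
  · have h := hper
    rw [Function.IsPeriodicPt, Function.IsFixedPt, Function.iterate_succ_apply'] at h
    exact h.symm

theorem map_per (K : Subgroup Γ) {a : Γ} (ha : a ∈ K) :
    (K.subtype) '' (per (⟨a, ha⟩ : K)) ⊆ per a := by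
  rintro _ ⟨x, ⟨n, hn, hx⟩, rfl⟩
  refine ⟨n, hn, ?_⟩
  have key : ∀ m : ℕ, ((ph (⟨a, ha⟩ : K))^[m] x : K).1 = (ph a)^[m] (x : Γ) := by
    intro m
    induction m with
    | zero => rfl
    | succ m ih =>
      rw [Function.iterate_succ_apply', Function.iterate_succ_apply', ← ih]
      rfl
  show (ph a)^[n] (x : Γ) = x
  rw [← key, show (ph (⟨a, ha⟩ : K))^[n] x = x from hx]

variable [Finite Γ]

theorem exists_iterate_mem_per (a x : Γ) : ∃ j : ℕ, (ph a)^[j] x ∈ per a := by
  obtain ⟨i, j, hij, he⟩ := Finite.exists_ne_map_eq_of_infinite (fun n : ℕ => (ph a)^[n] x)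
  wlog hlt : i < j generalizing i j
  · exact this j i hij.symm he.symm (lt_of_le_of_ne (not_lt.1 hlt) hij.symm)
  refine ⟨i, j - i, by omega, ?_⟩
  show (ph a)^[j - i] ((ph a)^[i] x) = (ph a)^[i] x
  rw [← Function.iterate_add_apply, Nat.sub_add_cancel hlt.le]
  exact he.symm

/-- The inductive step. -/
theorem step {a : Γ} (hnc : Subgroup.normalClosure ({a} : Set Γ) = ⊤)
    (hIH : ∀ K : Subgroup Γ, K ≠ ⊤ → a ∈ K → NC (Subgroup.zpowers a) K = K →
      K ≤ Subgroup.closure (per a)) :
    Subgroup.closure (per a) = ⊤ := by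
  by_contra hP
  obtain ⟨P, hPdef⟩ : ∃ P, P = Subgroup.closure (per a) := ⟨_, rfl⟩
  rw [← hPdef] at hP hIH
  have haP : a ∈ P := hPdef ▸ Subgroup.subset_closure (self_mem_per a)
  obtain ⟨A, hAdef⟩ : ∃ A, A = Subgroup.zpowers a := ⟨_, rfl⟩
  rw [← hAdef] at hIH
  have haA : a ∈ A := hAdef ▸ Subgroup.mem_zpowers a
  have hAP : A ≤ P := by rw [hAdef]; exact (Subgroup.zpowers_le).2 haP
  have hAne : A ≠ ⊤ := fun he => hP (top_le_iff.1 (he ▸ hAP))
  have hncA : NC A ⊤ = ⊤ := by
    rw [NC_top_eq_normalClosure, eq_top_iff, ← hnc]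
    refine Subgroup.normalClosure_mono ?_
    simpa using haA
  have hNCP : NC A P = P := by
    refine le_antisymm (NC_le hAP) ?_
    rw [hPdef, Subgroup.closure_le]
    intro y hy
    obtain ⟨z, hz, hzy⟩ := exists_pred hy
    have hzP : z ∈ Subgroup.closure (per a) := Subgroup.subset_closure hz
    have h1 : cj z A ≤ NC A (Subgroup.closure (per a)) := conj_mem_NC hzP
    have h2 : y ∈ cj z A := by
      rw [hzy, mem_conj]
      have : z⁻¹ * (z * a * z⁻¹) * z = a := by group
      rw [this]
      exact haA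
    rw [← hPdef] at h1 ⊢
    exact h1 h2
  have hPC : P ∈ Cn A := ⟨hAP, hP, hNCP⟩
  have hY : Yj A ≠ ⊤ := by
    intro he
    apply hP
    rw [eq_top_iff, ← he]
    refine sSup_le fun H hH => hIH H hH.2.1 (hH.1 haA) hH.2.2
  have hgood := good_all A hAne hncA hY
  obtain ⟨M, hM, hPM⟩ := (eq_top_or_exists_le_coatom P).resolve_left hP
  have hAM : A ≤ M := hAP.trans hPM
  have hNMtop : Subgroup.normalizer (M : Set Γ) ≠ ⊤ := by
    intro he
    have h3 : NC A ⊤ ≤ M := NC_le_of hAM le_top (by rw [he])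
    rw [hncA] at h3
    exact hM.1 (top_le_iff.1 h3)
  have hNM : Subgroup.normalizer (M : Set Γ) ≤ M := by
    have h3 : M ≤ Subgroup.normalizer (M : Set Γ) := Subgroup.le_normalizer
    rcases lt_or_eq_of_le h3 with h4 | h4
    · exact absurd (hM.2 _ h4) hNMtop
    · exact h4.ge
  have hback : ∀ j : ℕ, ∀ x : Γ, (ph a)^[j] x ∈ M → x ∈ M := by
    intro j
    induction j with
    | zero => exact fun x hx => hx
    | succ j ih =>
      intro x hx
      rw [Function.iterate_succ_apply] at hx
      have h1 : x * a * x⁻¹ ∈ M := ih _ hx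
      have h2 : A ≤ cj x⁻¹ M := by
        rw [hAdef, Subgroup.zpowers_le, mem_conj]
        simpa using h1
      have h3 := hgood M (cj x⁻¹ M) hM (isCoatom_cj hM x⁻¹) hAM h2
      have h4 : x⁻¹ ∈ Subgroup.normalizer (M : Set Γ) := mem_normalizer_of_conj_eq h3.symm
      exact (Subgroup.inv_mem_iff _).1 (hNM h4)
  apply hM.1
  rw [eq_top_iff]
  intro x _
  obtain ⟨j, hj⟩ := exists_iterate_mem_per a x
  refine hback j x (hPM ?_)
  rw [hPdef]
  exact Subgroup.subset_closure hj

end Periodic

/-- The periodic points of `x ↦ x a x⁻¹` generate, if the conjugates of `a` do. -/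
theorem closure_per_eq_top : ∀ (n : ℕ) (Γ : Type u) [Group Γ] [Finite Γ] (a : Γ),
    Nat.card Γ = n → Subgroup.normalClosure ({a} : Set Γ) = ⊤ →
      Subgroup.closure (per a) = ⊤ := by
  intro n
  induction n using Nat.strong_induction_on with
  | _ n ih =>
    intro Γ _ _ a hn hnc
    refine step hnc fun K hK haK hNC => ?_
    have hcard : Nat.card K < n := by
      rw [← hn]
      refine lt_of_le_of_ne (Subgroup.card_le_card_group K) fun h => hK ?_
      exact Subgroup.eq_top_of_card_eq K h
    have hAK : Subgroup.zpowers a ≤ K := (Subgroup.zpowers_le).2 haK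
    have h1 := (normalClosure_subgroupOf_eq_top_iff hAK).2 hNC
    have h2 : Subgroup.normalClosure ({(⟨a, haK⟩ : K)} : Set K) = ⊤ := by
      rw [eq_top_iff, ← h1]
      refine Subgroup.normalClosure_le_normal ?_
      rintro x hx
      have hx' : (x : Γ) ∈ Subgroup.zpowers a := Subgroup.mem_subgroupOf.1 hx
      obtain ⟨z, hz⟩ := hx'
      have : x = (⟨a, haK⟩ : K) ^ z := by
        apply Subtype.ext
        simpa using hz.symm
      rw [this]
      exact Subgroup.zpow_mem _ (Subgroup.subset_normalClosure (by simp)) z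
    have h3 := ih _ hcard K ⟨a, haK⟩ rfl h2
    intro x hx
    have h4 : (⟨x, hx⟩ : K) ∈ Subgroup.closure (per (⟨a, haK⟩ : K)) := by
      rw [h3]; exact Subgroup.mem_top _
    have h5 : (K.subtype) ⟨x, hx⟩ ∈ (Subgroup.closure (per (⟨a, haK⟩ : K))).map K.subtype :=
      ⟨_, h4, rfl⟩
    rw [MonoidHom.map_closure] at h5
    exact Subgroup.closure_mono (map_per K haK) h5

section Semidirect

variable {G : Type u} [Group G] (α : MulAut G)

/-- The map `c ↦ c * (α c)⁻¹`. -/
abbrev fc (c : G) : G := c * (α c)⁻¹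

/-- The group `G ⋊ ⟨α⟩`. -/
abbrev Gm : Type u := SemidirectProduct G (Subgroup.zpowers α) (Subgroup.zpowers α).subtype

/-- The generator of `⟨α⟩`. -/
abbrev a0 : Subgroup.zpowers α := ⟨α, Subgroup.mem_zpowers α⟩

/-- The generator, in `G ⋊ ⟨α⟩`. -/
abbrev a1 : Gm α := SemidirectProduct.inr (a0 α)

theorem ph_right (x : Gm α) : (ph (a1 α) x).right = a0 α := by
  have hc : x.right * a0 α = a0 α * x.right := by
    apply Subtype.ext
    obtain ⟨z, hz⟩ := x.right.2
    show (x.right : MulAut G) * α = α * (x.right : MulAut G)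
    rw [← hz]
    exact (Commute.refl α).zpow_left z
  show x.right * a0 α * x.right⁻¹ = a0 α
  rw [hc, mul_inv_cancel_right]

theorem ph_left (x : Gm α) : (ph (a1 α) x).left = fc α x.left := by
  have hc : (x.right : MulAut G) * α = α * (x.right : MulAut G) := by
    obtain ⟨z, hz⟩ := x.right.2
    rw [← hz]
    exact (Commute.refl α).zpow_left z
  show (x * a1 α * x⁻¹).left = _
  rw [SemidirectProduct.mul_left, SemidirectProduct.mul_left, SemidirectProduct.inv_left,
    SemidirectProduct.mul_right]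
  simp only [SemidirectProduct.left_inr, map_one, mul_one, SemidirectProduct.right_inr]
  show x.left * ((x.right : MulAut G) * α) (((x.right : MulAut G)⁻¹) (x.left⁻¹)) = _
  rw [hc, MulAut.mul_apply]
  have : (x.right : MulAut G) ((x.right : MulAut G)⁻¹ (x.left⁻¹)) = x.left⁻¹ := by
    rw [← MulAut.mul_apply, mul_inv_cancel, MulAut.one_apply]
  rw [this, map_inv]

theorem iter_left (x : Gm α) (j : ℕ) :
    ((ph (a1 α))^[j] x).left = (fc α)^[j] x.left := by
  induction j with
  | zero => rfl
  | succ j ih =>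
    rw [Function.iterate_succ_apply', Function.iterate_succ_apply', ph_left, ih]

/-- The values of iterates are `α`-equivariant. -/
theorem iter_map (j : ℕ) (c : G) : α ((fc α)^[j] c) = (fc α)^[j] (α c) := by
  induction j generalizing c with
  | zero => rfl
  | succ j ih =>
    rw [Function.iterate_succ_apply', Function.iterate_succ_apply', ← ih]
    simp [fc]

theorem left_mem_of_mem_per {x : Gm α} (hx : x ∈ per (a1 α)) {k : ℕ} :
    x.left ∈ Set.range ((fc α)^[k]) := by
  obtain ⟨n, hn, hx⟩ := hx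
  have h1 : Function.IsPeriodicPt (ph (a1 α)) (n * (k + 1)) x := hx.mul_const _
  have h2 : (ph (a1 α))^[n * (k + 1)] x = x := h1
  have hk : k ≤ n * (k + 1) := by nlinarith
  refine ⟨(fc α)^[n * (k + 1) - k] x.left, ?_⟩
  rw [← Function.iterate_add_apply, Nat.add_sub_cancel' hk, ← iter_left, h2]

variable [Finite G]

instance : Finite (Gm α) := Finite.of_equiv _ SemidirectProduct.equivProd.symm

theorem normalClosure_a1 (hG : Subgroup.closure (Set.range (fun c : G => c * (α c)⁻¹)) = ⊤) :
    Subgroup.normalClosure ({a1 α} : Set (Gm α)) = ⊤ := by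
  obtain ⟨N, hN⟩ : ∃ N, N = Subgroup.normalClosure ({a1 α} : Set (Gm α)) := ⟨_, rfl⟩
  rw [← hN]
  have hNn : N.Normal := hN ▸ Subgroup.normalClosure_normal
  have ha : a1 α ∈ N := hN ▸ Subgroup.subset_normalClosure (Set.mem_singleton _)
  have hf : ∀ c : G, (SemidirectProduct.inl (fc α c) : Gm α) ∈ N := by
    intro c
    have h1 : ph (a1 α) (SemidirectProduct.inl c) ∈ N := hNn.conj_mem _ ha _
    have h2 : ph (a1 α) (SemidirectProduct.inl c) =
        SemidirectProduct.inl (fc α c) * a1 α := by
      apply SemidirectProduct.ext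
      · rw [ph_left]; simp [SemidirectProduct.mul_left]
      · rw [ph_right]; simp [SemidirectProduct.mul_right]
    rw [h2] at h1
    have h3 := N.mul_mem h1 (N.inv_mem ha)
    rwa [mul_inv_cancel_right] at h3
  have hl : ∀ g : G, (SemidirectProduct.inl g : Gm α) ∈ N := by
    intro g
    have hg : g ∈ Subgroup.closure (Set.range (fun c : G => c * (α c)⁻¹)) := by
      rw [hG]; exact Subgroup.mem_top _
    induction hg using Subgroup.closure_induction with
    | mem x hx =>
      obtain ⟨c, rfl⟩ := hx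
      exact hf c
    | one => rw [map_one]; exact N.one_mem
    | mul x y _ _ hx hy => rw [map_mul]; exact N.mul_mem hx hy
    | inv x _ hx => rw [map_inv]; exact N.inv_mem hx
  have hr : ∀ h : Subgroup.zpowers α, (SemidirectProduct.inr h : Gm α) ∈ N := by
    rintro ⟨_, z, rfl⟩
    have : (SemidirectProduct.inr ⟨α ^ z, z, rfl⟩ : Gm α) = a1 α ^ z := by
      rw [a1, ← map_zpow]
      rfl
    rw [this]
    exact N.zpow_mem ha z
  rw [eq_top_iff]
  intro x _
  rw [← SemidirectProduct.inl_left_mul_inr_right x]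
  exact N.mul_mem (hl _) (hr _)

/-- The theorem. -/
theorem closure_iterate_eq_top (hG : Subgroup.closure (Set.range (fun c : G => c * (α c)⁻¹)) = ⊤)
    (k : ℕ) : Subgroup.closure (Set.range ((fun c : G => c * (α c)⁻¹)^[k])) = ⊤ := by
  obtain ⟨T, hT⟩ : ∃ T, T = Subgroup.closure (Set.range ((fc α)^[k])) := ⟨_, rfl⟩
  show Subgroup.closure (Set.range ((fc α)^[k])) = ⊤
  rw [← hT]
  have hα : ∀ t ∈ T, α t ∈ T := by
    intro t ht
    rw [hT] at ht ⊢
    induction ht using Subgroup.closure_induction with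
    | mem x hx =>
      obtain ⟨c, rfl⟩ := hx
      rw [iter_map]
      exact Subgroup.subset_closure ⟨_, rfl⟩
    | one => rw [map_one]; exact Subgroup.one_mem _
    | mul x y _ _ hx hy => rw [map_mul]; exact Subgroup.mul_mem _ hx hy
    | inv x _ hx => rw [map_inv]; exact Subgroup.inv_mem _ hx
  have hpow : ∀ (m : ℕ), ∀ t ∈ T, (α ^ m) t ∈ T := by
    intro m
    induction m with
    | zero => exact fun t ht => ht
    | succ m ih =>
      intro t ht
      rw [pow_succ', MulAut.mul_apply]
      exact hα _ (ih t ht)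
  have hzp : ∀ h : Subgroup.zpowers α, ∀ t ∈ T, (h : MulAut G) t ∈ T := by
    intro h t ht
    have : (h : MulAut G) ∈ Submonoid.powers α := mem_powers_iff_mem_zpowers.2 h.2
    obtain ⟨m, hm⟩ := this
    rw [← hm]
    exact hpow m t ht
  have hmain := closure_per_eq_top _ (Gm α) (a1 α) rfl (normalClosure_a1 α hG)
  have hall : ∀ x ∈ Subgroup.closure (per (a1 α)), x.left ∈ T := by
    intro x hx
    induction hx using Subgroup.closure_induction with
    | mem x hx =>
      rw [hT]
      exact Subgroup.subset_closure (left_mem_of_mem_per α hx)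
    | one => exact T.one_mem
    | mul x y _ _ hx hy =>
      rw [SemidirectProduct.mul_left]
      exact T.mul_mem hx (hzp _ _ hy)
    | inv x _ hx =>
      rw [SemidirectProduct.inv_left]
      exact hzp x.right⁻¹ _ (T.inv_mem hx)
  rw [eq_top_iff]
  intro g _
  have := hall (SemidirectProduct.inl g) (by rw [hmain]; exact Subgroup.mem_top _)
  simpa using this

end Semidirect

end Cfsg.Agent.Lib.Transfer.Flavell2
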