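import Mathlib
import Cfsg.Agent.Lib.Transfer.Flavell2
import Cfsg.Agent.S3949

/-!
# Groups with an involutory automorphism inverting few odd-order elements

Let `α` be an automorphism of `G` with `α² = 1` and `[G, α] = G`, and `S` the set of odd-order
elements inverted by `α`.  Then `S` generates `G`, quotients do not enlarge `S`, and a normal
`α`-invariant subgroup on which `S` maps injectively to the quotient is central.
-/

set_option autoImplicit false
set_option linter.style.haveILetI false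
set_option linter.unusedSectionVars false

namespace Cfsg.Agent.Lib.Transfer.Inverted

section Basic

variable {G : Type*} [Group G]

/-- The odd-order elements inverted by `α`. -/
def Sset (α : MulAut G) : Set G := {g | Odd (orderOf g) ∧ α g = g⁻¹}

/-- The hypotheses: `α² = 1` and `[G, α] = G`. -/
structure Good (α : MulAut G) : Prop where
  inv : ∀ g, α (α g) = g
  gen : Subgroup.closure (Set.range (fun c : G => c * (α c)⁻¹)) = ⊤

theorem one_mem_Sset (α : MulAut G) : (1 : G) ∈ Sset α := by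
  simp [Sset]

/-- `x (α x)⁻¹` is inverted, if `α² = 1`. -/
theorem inverted_f {α : MulAut G} (h : ∀ g, α (α g) = g) (x : G) :
    α (x * (α x)⁻¹) = (x * (α x)⁻¹)⁻¹ := by
  rw [map_mul, map_inv, h]
  simp

theorem Good.closure_S [Finite G] {α : MulAut G} (h : Good α) :
    Subgroup.closure (Sset α) = ⊤ := by
  by_cases h1 : α = 1
  · have h2 : Subgroup.closure (Set.range (fun c : G => c * (α c)⁻¹)) ≤ ⊥ := by
      rw [Subgroup.closure_le]
      rintro _ ⟨c, rfl⟩
      simp [h1]
    rw [h.gen] at h2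
    rw [eq_top_iff]
    exact h2.trans bot_le
  · have h2 : α ^ 2 = 1 := by
      ext g
      simp [pow_two, h.inv]
    have h3 : orderOf α = 2 := orderOf_eq_prime h2 h1
    have hj : ∀ g : G, α g = g⁻¹ → ¬ 2 ^ (Nat.card G + 1) ∣ orderOf g := by
      intro g _ hd
      have h4 := Nat.le_of_dvd (orderOf_pos g) hd
      have h5 : orderOf g ≤ Nat.card G := Nat.le_of_dvd Nat.card_pos (orderOf_dvd_natCard g)
      have h6 : Nat.card G + 1 < 2 ^ (Nat.card G + 1) := Nat.lt_two_pow_self
      omega
    have h7 := Cfsg.Agent.S3949.result α h3 h.gen _ hj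
    have h8 := Cfsg.Agent.Lib.Transfer.Flavell2.closure_iterate_eq_top α h.gen (Nat.card G + 1)
    rw [h7] at h8
    exact h8

/-- The odd part of an element. -/
theorem exists_odd_part [Finite G] (x : G) : ∃ (e a r : ℕ), orderOf x = 2 ^ a * r ∧ Odd r ∧
    e ≡ 1 [MOD r] ∧ 2 ^ a ∣ e ∧ Odd (orderOf (x ^ e)) := by
  have h0 : orderOf x ≠ 0 := (orderOf_pos x).ne'
  obtain ⟨a, r, hr, ho⟩ := Nat.exists_eq_two_pow_mul_odd h0
  have hco : (2 ^ a).Coprime r := Nat.Coprime.pow_left _ (Nat.coprime_two_left.2 hr)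
  obtain ⟨e, he1, he2⟩ := Nat.chineseRemainder hco 0 1
  have h2e : 2 ^ a ∣ e := (Nat.modEq_zero_iff_dvd).1 he1
  refine ⟨e, a, r, ho, hr, he2, h2e, ?_⟩
  have h1 : orderOf (x ^ e) ∣ r := by
    apply orderOf_dvd_of_pow_eq_one
    obtain ⟨u, rfl⟩ := h2e
    rw [← pow_mul]
    have : 2 ^ a * u * r = orderOf x * u := by rw [ho]; ring
    rw [this, pow_mul, pow_orderOf_eq_one, one_pow]
  exact Odd.of_dvd_nat hr h1

end Basic

section Quot

variable {G : Type*} [Group G]

/-- The induced automorphism of a quotient. -/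
noncomputable def qa (α : MulAut G) (hinv : ∀ g, α (α g) = g) (N : Subgroup G) [N.Normal]
    (hN : ∀ x ∈ N, α x ∈ N) : MulAut (G ⧸ N) :=
  QuotientGroup.congr N N α (by
    ext x
    constructor
    · rintro ⟨y, hy, rfl⟩
      exact hN y hy
    · intro hx
      exact ⟨α x, hN x hx, hinv x⟩)

theorem qa_mk (α : MulAut G) (hinv : ∀ g, α (α g) = g) (N : Subgroup G) [N.Normal]
    (hN : ∀ x ∈ N, α x ∈ N) (x : G) : qa α hinv N hN (x : G ⧸ N) = ((α x : G) : G ⧸ N) := rfl

theorem good_qa {α : MulAut G} (h : Good α) (N : Subgroup G) [N.Normal] (hN : ∀ x ∈ N, α x ∈ N) :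
    Good (qa α h.inv N hN) := by
  constructor
  · intro g
    induction g using QuotientGroup.induction_on with
    | H x => rw [qa_mk, qa_mk, h.inv]
  · rw [eq_top_iff]
    rintro x -
    obtain ⟨y, rfl⟩ := QuotientGroup.mk_surjective x
    have hy : y ∈ Subgroup.closure (Set.range (fun c : G => c * (α c)⁻¹)) := by
      rw [h.gen]; exact Subgroup.mem_top _
    induction hy using Subgroup.closure_induction with
    | mem y hy =>
      obtain ⟨c, rfl⟩ := hy
      exact Subgroup.subset_closure ⟨(c : G ⧸ N), by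
        show (c : G ⧸ N) * (qa α h.inv N hN (c : G ⧸ N))⁻¹ = _
        rw [qa_mk]
        rfl⟩
    | one => exact Subgroup.one_mem _
    | mul x y _ _ hx hy => exact Subgroup.mul_mem _ hx hy
    | inv x _ hx => exact Subgroup.inv_mem _ hx

/-- The image of an element of `S` lies in `S`. -/
theorem mk_mem_Sset {α : MulAut G} (h : Good α) [Finite G] (N : Subgroup G) [N.Normal]
    (hN : ∀ x ∈ N, α x ∈ N) {s : G} (hs : s ∈ Sset α) :
    ((s : G) : G ⧸ N) ∈ Sset (qa α h.inv N hN) := by
  refine ⟨?_, ?_⟩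
  · have h1 : orderOf ((s : G) : G ⧸ N) ∣ orderOf s :=
      orderOf_dvd_of_pow_eq_one (by rw [← QuotientGroup.mk_pow, pow_orderOf_eq_one]; rfl)
    exact Odd.of_dvd_nat hs.1 h1
  · rw [qa_mk, hs.2]
    rfl

/-- Odd-order inverted elements of the quotient lift. -/
theorem lift_Sset {α : MulAut G} (h : Good α) [Finite G] (N : Subgroup G) [N.Normal]
    (hN : ∀ x ∈ N, α x ∈ N) {t : G ⧸ N} (ht : t ∈ Sset (qa α h.inv N hN)) :
    ∃ s ∈ Sset α, ((s : G) : G ⧸ N) = t := by
  obtain ⟨g, rfl⟩ := QuotientGroup.mk_surjective t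
  obtain ⟨k, hk⟩ := ht.1
  -- `n = 2k+1`, `h = g^(k+1)`, and `x = h (α h)⁻¹`
  set x : G := g ^ (k + 1) * (α (g ^ (k + 1)))⁻¹ with hx
  have hxinv : α x = x⁻¹ := inverted_f h.inv _
  have hg : ((α g : G) : G ⧸ N) = ((g : G) : G ⧸ N)⁻¹ := by
    have := ht.2
    rwa [qa_mk] at this
  have hxg : ((x : G) : G ⧸ N) = (g : G ⧸ N) := by
    have h1 : ((α (g ^ (k + 1)) : G) : G ⧸ N) = ((g : G) : G ⧸ N)⁻¹ ^ (k + 1) := by
      rw [map_pow, QuotientGroup.mk_pow, hg]
    rw [hx, QuotientGroup.mk_mul, QuotientGroup.mk_inv, h1, QuotientGroup.mk_pow, inv_pow, inv_inv,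
      ← pow_add]
    have h2 : k + 1 + (k + 1) = orderOf ((g : G) : G ⧸ N) + 1 := by omega
    rw [h2, pow_succ, pow_orderOf_eq_one, one_mul]
  obtain ⟨e, a, r, ho, hr, he1, he2, hod⟩ := exists_odd_part x
  refine ⟨x ^ e, ⟨hod, by rw [map_pow, hxinv, inv_pow]⟩, ?_⟩
  have hdiv : orderOf ((x : G) : G ⧸ N) ∣ r := by
    have h1 : orderOf ((x : G) : G ⧸ N) ∣ 2 ^ a * r := by
      rw [← ho]
      exact orderOf_dvd_of_pow_eq_one (by rw [← QuotientGroup.mk_pow, pow_orderOf_eq_one]; rfl)
    have h2 : Nat.Coprime (orderOf ((x : G) : G ⧸ N)) (2 ^ a) := by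
      rw [hxg]
      apply Nat.Coprime.pow_right
      rw [Nat.coprime_two_right]
      exact ht.1
    exact h2.dvd_of_dvd_mul_left h1
  rw [QuotientGroup.mk_pow]
  have h3 : e ≡ 1 [MOD orderOf ((x : G) : G ⧸ N)] := he1.of_dvd hdiv
  have h4 := (pow_eq_pow_iff_modEq).2 h3
  rw [h4, pow_one, hxg]

end Quot

section TheoremA

variable {G : Type*} [Group G] [Finite G] {α : MulAut G}

theorem mem_center_of_commute (h : Good α) {v : G} (hv : ∀ y ∈ Sset α, v * y = y * v) :
    v ∈ Subgroup.center G := by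
  have h1 : Subgroup.closure (Sset α) ≤ Subgroup.centralizer ({v} : Set G) := by
    rw [Subgroup.closure_le]
    intro y hy
    rw [SetLike.mem_coe, Subgroup.mem_centralizer_iff]
    rintro _ rfl
    exact hv y hy
  rw [h.closure_S] at h1
  rw [Subgroup.mem_center_iff]
  intro g
  have h2 := h1 (Subgroup.mem_top g)
  rw [Subgroup.mem_centralizer_iff] at h2
  exact (h2 v rfl).symm

/-- Theorem A: a normal subgroup on which `S` stays injective is central. -/
theorem central_of_inj (h : Good α) (N : Subgroup G) [hNn : N.Normal] (hN : ∀ x ∈ N, α x ∈ N)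
    (hinj : ∀ s ∈ Sset α, ∀ s' ∈ Sset α, s⁻¹ * s' ∈ N → s = s') : N ≤ Subgroup.center G := by
  -- step 1
  have h1 : ∀ v ∈ N, v * (α v)⁻¹ ∈ Subgroup.center G → v ∈ Subgroup.center G := by
    intro v hv hz
    apply mem_center_of_commute h
    intro y hy
    have hz' : α v = (v * (α v)⁻¹)⁻¹ * v := by group
    obtain ⟨ζ, hζ⟩ : ∃ ζ, ζ = (v * (α v)⁻¹)⁻¹ := ⟨_, rfl⟩
    have hζc : ζ ∈ Subgroup.center G := hζ ▸ Subgroup.inv_mem _ hz
    rw [← hζ] at hz'
    have hS : v * y * v⁻¹ ∈ Sset α := by
      refine ⟨?_, ?_⟩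
      · have : orderOf (v * y * v⁻¹) = orderOf y := by
          have := orderOf_injective (MulAut.conj v).toMonoidHom (MulAut.conj v).injective y
          simpa using this
        rw [this]
        exact hy.1
      · rw [map_mul, map_mul, map_inv, hy.2, hz']
        have hc : ∀ g, ζ * g = g * ζ := fun g => (Subgroup.mem_center_iff.1 hζc g).symm
        have : ζ * v * y⁻¹ * (ζ * v)⁻¹ = v * y⁻¹ * v⁻¹ := by
          rw [mul_inv_rev, hc v]
          have : v * ζ * y⁻¹ * (v⁻¹ * ζ⁻¹) = v * (ζ * y⁻¹) * v⁻¹ * ζ⁻¹ := by group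
          rw [this, hc y⁻¹]
          have : v * (y⁻¹ * ζ) * v⁻¹ * ζ⁻¹ = v * y⁻¹ * (ζ * v⁻¹) * ζ⁻¹ := by group
          rw [this, hc v⁻¹]
          group
        rw [this]
        group
    have h2 := hinj y hy _ hS (by
      have : y⁻¹ * (v * y * v⁻¹) = (y⁻¹ * v * y) * v⁻¹ := by group
      rw [this]
      refine N.mul_mem ?_ (N.inv_mem hv)
      have := hNn.conj_mem v hv y⁻¹
      simpa using this)
    have h3 : y * v = v * y := by
      nth_rewrite 1 [h2]
      group
    exact h3.symm
  -- step 2: inverted elements of `N` are central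
  have h2 : ∀ x ∈ N, α x = x⁻¹ → x ∈ Subgroup.center G := by
    intro x hx hinvx
    obtain ⟨e, a, r, ho, hr, he1, he2, hod⟩ := exists_odd_part x
    have hxe : x ^ e ∈ Sset α := ⟨hod, by rw [map_pow, hinvx, inv_pow]⟩
    have h3 : (1 : G) = x ^ e := hinj 1 (one_mem_Sset α) _ hxe (by
      rw [inv_one, one_mul]
      exact N.pow_mem hx e)
    have hr1 : r = 1 := by
      have h4 : orderOf x ∣ e := orderOf_dvd_of_pow_eq_one h3.symm
      have h5 : r ∣ e := (Dvd.intro_left _ ho.symm).trans h4
      have h6 : e ≡ 0 [MOD r] := (Nat.modEq_zero_iff_dvd).2 h5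
      have h7 : 1 ≡ 0 [MOD r] := he1.symm.trans h6
      exact Nat.dvd_one.1 ((Nat.modEq_zero_iff_dvd).1 h7)
    have h4 : x ^ (2 ^ a) = 1 := by
      have : orderOf x = 2 ^ a := by rw [ho, hr1, mul_one]
      rw [← this, pow_orderOf_eq_one]
    have key : ∀ k : ℕ, x ^ (2 ^ k) ∈ Subgroup.center G → x ∈ Subgroup.center G := by
      intro k
      induction k with
      | zero => simp
      | succ k ih =>
        intro hk
        apply ih
        apply h1 _ (N.pow_mem hx _)
        rw [map_pow, hinvx, inv_pow, inv_inv, ← pow_add, ← two_mul, ← pow_succ']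
        exact hk
    exact key a (by rw [h4]; exact Subgroup.one_mem _)
  intro v hv
  apply h1 v hv
  apply h2 _ (N.mul_mem hv (N.inv_mem (hN v hv)))
  exact inverted_f h.inv v

end TheoremA

section Schur

open scoped commutatorElement

variable {G : Type*} [Group G] [Finite G] {α : MulAut G}

/-- The bound from Schur's theorem. -/
def schurB (k : ℕ) : ℕ := k ^ (k * k ^ 2 + 1)

theorem card_commutatorSet_le : Nat.card (commutatorSet G) ≤ (Subgroup.center G).index ^ 2 := by
  classical
  have hch : ∀ c : commutatorSet G, ∃ x y : G, ⁅x, y⁆ = (c : G) := fun c => c.2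
  choose fx fy hxy using hch
  have hinj : Function.Injective (fun c : commutatorSet G =>
      (((fx c : G) : G ⧸ Subgroup.center G), ((fy c : G) : G ⧸ Subgroup.center G))) := by
    intro c d he
    simp only [Prod.mk.injEq, QuotientGroup.eq] at he
    obtain ⟨h1, h2⟩ := he
    apply Subtype.ext
    rw [← hxy c, ← hxy d]
    have hx : fx d = fx c * ((fx c)⁻¹ * fx d) := by group
    have hy : fy d = fy c * ((fy c)⁻¹ * fy d) := by group
    obtain ⟨z, hz⟩ : ∃ z, z = (fx c)⁻¹ * fx d := ⟨_, rfl⟩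
    obtain ⟨w, hw⟩ : ∃ w, w = (fy c)⁻¹ * fy d := ⟨_, rfl⟩
    rw [← hz] at hx h1
    rw [← hw] at hy h2
    rw [hx, hy]
    have hzc : ∀ g, z * g = g * z := fun g => (Subgroup.mem_center_iff.1 h1 g).symm
    have hwc : ∀ g, w * g = g * w := fun g => (Subgroup.mem_center_iff.1 h2 g).symm
    simp only [commutatorElement_def, mul_inv_rev]
    have e1 : fx c * z * (fy c * w) * (z⁻¹ * (fx c)⁻¹) * (w⁻¹ * (fy c)⁻¹) =
        fx c * (z * fy c) * w * z⁻¹ * (fx c)⁻¹ * w⁻¹ * (fy c)⁻¹ := by group
    rw [e1, hzc]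
    have e2 : fx c * (fy c * z) * w * z⁻¹ * (fx c)⁻¹ * w⁻¹ * (fy c)⁻¹ =
        fx c * fy c * (z * w) * z⁻¹ * (fx c)⁻¹ * w⁻¹ * (fy c)⁻¹ := by group
    rw [e2, hzc w]
    have e3 : fx c * fy c * (w * z) * z⁻¹ * (fx c)⁻¹ * w⁻¹ * (fy c)⁻¹ =
        fx c * fy c * (w * (fx c)⁻¹) * w⁻¹ * (fy c)⁻¹ := by group
    rw [e3, hwc]
    group
  have h1 := Nat.card_le_card_of_injective _ hinj
  rw [Nat.card_prod, ← Subgroup.index_eq_card] at h1
  rwa [pow_two]

theorem card_commutator_le {k : ℕ} (hk : (Subgroup.center G).index ≤ k) :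
    Nat.card (commutator G) ≤ schurB k := by
  have hpos : 0 < (Subgroup.center G).index := Nat.pos_of_ne_zero Subgroup.FiniteIndex.index_ne_zero
  have h1 := Subgroup.card_commutator_dvd_index_center_pow G
  have h2 := Nat.le_of_dvd (pow_pos hpos _) h1
  refine h2.trans ?_
  refine (Nat.pow_le_pow_left hk _).trans (Nat.pow_le_pow_right (hpos.trans_le hk) ?_)
  have h3 := card_commutatorSet_le (G := G)
  have h4 : (Subgroup.center G).index ^ 2 ≤ k ^ 2 := Nat.pow_le_pow_left hk 2
  have := Nat.mul_le_mul hk (h3.trans h4)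
  omega

/-- `|G : G'| ≤ |S|`. -/
theorem index_commutator_le (h : Good α) : (commutator G).index ≤ Nat.card (Sset α) := by
  have hN : ∀ x ∈ commutator G, α x ∈ commutator G := by
    intro x hx
    have h1 : (commutator G).Characteristic := inferInstance
    have h2 := h1.fixed α
    rw [← h2] at hx
    rw [Subgroup.mem_comap] at hx
    exact hx
  have hcomm : ∀ a b : G ⧸ commutator G, a * b = b * a := by
    intro a b
    obtain ⟨x, rfl⟩ := QuotientGroup.mk_surjective a
    obtain ⟨y, rfl⟩ := QuotientGroup.mk_surjective b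
    rw [← QuotientGroup.mk_mul, ← QuotientGroup.mk_mul, QuotientGroup.eq]
    have h3 : ⁅y⁻¹, x⁻¹⁆ ∈ commutator G := Subgroup.commutator_mem_commutator
      (Subgroup.mem_top _) (Subgroup.mem_top _)
    have : (x * y)⁻¹ * (y * x) = ⁅y⁻¹, x⁻¹⁆ := by
      simp only [commutatorElement_def]
      group
    rw [this]
    exact h3
  have hall : ∀ x : G, ((x : G) : G ⧸ commutator G) ∈ Sset (qa α h.inv _ hN) := by
    intro x
    have hx : x ∈ Subgroup.closure (Sset α) := by
      rw [h.closure_S]; exact Subgroup.mem_top _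
    induction hx using Subgroup.closure_induction with
    | mem x hx => exact mk_mem_Sset h _ hN hx
    | one => exact one_mem_Sset _
    | mul x y _ _ hx hy =>
      rw [QuotientGroup.mk_mul]
      refine ⟨?_, ?_⟩
      · have hc : Commute ((x : G) : G ⧸ commutator G) ((y : G) : G ⧸ commutator G) := hcomm _ _
        exact Odd.of_dvd_nat (hx.1.mul hy.1) hc.orderOf_mul_dvd_mul_orderOf
      · rw [map_mul, hx.2, hy.2, mul_inv_rev, hcomm]
    | inv x _ hx =>
      rw [QuotientGroup.mk_inv]
      refine ⟨?_, ?_⟩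
      · rw [orderOf_inv]; exact hx.1
      · rw [map_inv, hx.2]
  have hsurj : Function.Surjective (fun s : Sset α => ((s.1 : G) : G ⧸ commutator G)) := by
    intro a
    obtain ⟨x, rfl⟩ := QuotientGroup.mk_surjective a
    obtain ⟨s, hs, he⟩ := lift_Sset h _ hN (hall x)
    exact ⟨⟨s, hs⟩, he⟩
  rw [Subgroup.index_eq_card]
  exact Nat.card_le_card_of_surjective _ hsurj

/-- A bound on `|G|` in terms of `|S|` and `|G : Z(G)|`. -/
theorem card_le_of_index_center (h : Good α) {k : ℕ} (hk : (Subgroup.center G).index ≤ k) :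
    Nat.card G ≤ Nat.card (Sset α) * schurB k := by
  rw [← (commutator G).card_mul_index, mul_comm]
  exact Nat.mul_le_mul (index_commutator_le h) (card_commutator_le hk)

end Schur

section BF

/-- The Brauer–Fowler count: an involutory automorphism with few fixed points gives a nontrivial
element with few conjugates. -/
theorem exists_small_class {X : Type*} [Group X] [Finite X] (a : X →* X)
    (ha : ∀ x, a (a x) = x) (hne : ∃ x, a x ≠ x) :
    ∃ g : X, g ≠ 1 ∧ Nat.card X ≤
      2 * Nat.card {x : X // a x = x} ^ 2 * Nat.card (Subgroup.centralizer ({g} : Set X)) := by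
  classical
  haveI := Fintype.ofFinite X
  let f : X → X := fun x => x * (a x)⁻¹
  have hfinv : ∀ x, a (f x) = (f x)⁻¹ := by
    intro x
    simp only [f, map_mul, map_inv, ha, mul_inv_rev, inv_inv]
  let D : Finset X := Finset.univ.image f
  have hDinv : ∀ d ∈ D, a d = d⁻¹ := by
    intro d hd
    obtain ⟨x, -, rfl⟩ := Finset.mem_image.1 hd
    exact hfinv x
  obtain ⟨q, hq⟩ : ∃ q, q = Nat.card {x : X // a x = x} := ⟨_, rfl⟩
  have hqF : q = (Finset.univ.filter (fun x : X => a x = x)).card := by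
    rw [hq, Nat.card_eq_fintype_card, Fintype.card_subtype]
  -- fibers
  have hfib : ∀ d ∈ D, (Finset.univ.filter (fun y : X => f y = d)).card = q := by
    intro d hd
    obtain ⟨x, -, rfl⟩ := Finset.mem_image.1 hd
    rw [hqF]
    refine Finset.card_bij (fun y _ => x⁻¹ * y) ?_ ?_ ?_
    · intro y hy
      have hy' : f y = f x := (Finset.mem_filter.1 hy).2
      simp only [f] at hy'
      simp only [Finset.mem_filter, Finset.mem_univ, true_and, map_mul, map_inv]
      -- `x (a x)⁻¹ = y (a y)⁻¹`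
      have : (a x)⁻¹ * a y = x⁻¹ * y := by
        have h1 : (a y)⁻¹ = y⁻¹ * (x * (a x)⁻¹) := by
          rw [← hy']; group
        have h2 : a y = (y⁻¹ * (x * (a x)⁻¹))⁻¹ := by rw [← h1, inv_inv]
        rw [h2]; group
      exact this
    · intro y _ z _ he
      exact mul_left_cancel he
    · intro z hz
      refine ⟨x * z, ?_, by group⟩
      have hz' : a z = z := (Finset.mem_filter.1 hz).2
      simp only [Finset.mem_filter, Finset.mem_univ, true_and, f, map_mul, hz', mul_inv_rev]
      group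
  have hcardX : Fintype.card X = D.card * q := by
    have h1 := Finset.card_eq_sum_card_fiberwise (f := f) (s := Finset.univ) (t := D)
      (fun x _ => Finset.mem_coe.2 (Finset.mem_image_of_mem f (Finset.mem_univ x)))
    rw [Finset.card_univ] at h1
    rw [h1, Finset.sum_congr rfl hfib, Finset.sum_const, smul_eq_mul]
  have h1D : (1 : X) ∈ D := Finset.mem_image.2 ⟨1, Finset.mem_univ _, by simp [f]⟩
  have hD2 : 2 ≤ D.card := by
    obtain ⟨x, hx⟩ := hne
    have h2 : f x ∈ D := Finset.mem_image_of_mem f (Finset.mem_univ x)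
    have h3 : f x ≠ 1 := by
      intro he
      simp only [f, mul_inv_eq_one] at he
      exact hx he.symm
    have : ({1, f x} : Finset X) ⊆ D := by
      intro y hy
      simp only [Finset.mem_insert, Finset.mem_singleton] at hy
      rcases hy with rfl | rfl
      · exact h1D
      · exact h2
    have h4 := Finset.card_le_card this
    rwa [Finset.card_pair (Ne.symm h3)] at h4
  -- double counting
  let J : X → Finset X := fun g => D.filter (fun d => g⁻¹ * d ∈ D)
  have hsum : ∑ g, (J g).card = D.card * D.card := by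
    have h1 := Finset.sum_card_bipartiteAbove_eq_sum_card_bipartiteBelow
      (s := (Finset.univ : Finset X)) (t := D) (fun g d => g⁻¹ * d ∈ D)
    simp only [Finset.bipartiteAbove, Finset.bipartiteBelow] at h1
    show ∑ g, (D.filter (fun d => g⁻¹ * d ∈ D)).card = _
    rw [h1]
    have h2 : ∀ d ∈ D, (Finset.univ.filter (fun g : X => g⁻¹ * d ∈ D)).card = D.card := by
      intro d _
      refine Finset.card_bij (fun g _ => g⁻¹ * d) ?_ ?_ ?_
      · intro g hg
        exact (Finset.mem_filter.1 hg).2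
      · intro g _ k _ he
        have := mul_right_cancel he
        exact inv_injective this
      · intro e he
        refine ⟨d * e⁻¹, ?_, by group⟩
        simp only [Finset.mem_filter, Finset.mem_univ, true_and]
        have : (d * e⁻¹)⁻¹ * d = e := by group
        rw [this]
        exact he
    rw [Finset.sum_congr rfl h2, Finset.sum_const, smul_eq_mul]
  have hJ1 : J 1 = D := by
    simp only [J, inv_one, one_mul]
    exact Finset.filter_true_of_mem fun _ h => h
  obtain ⟨E, hE⟩ : ∃ E, E = (Finset.univ : Finset X).erase 1 := ⟨_, rfl⟩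
  have hsumE : ∑ g ∈ E, (J g).card + D.card = D.card * D.card := by
    rw [← hsum, hE, ← Finset.add_sum_erase _ _ (Finset.mem_univ (1 : X)), hJ1, add_comm]
  have hEcard : E.card + 1 = D.card * q := by
    rw [hE, Finset.card_erase_of_mem (Finset.mem_univ _), Finset.card_univ, ← hcardX]
    have : 0 < Fintype.card X := Fintype.card_pos
    omega
  have hex : ∃ g ∈ E, D.card ≤ (J g).card * q + 1 := by
    by_contra hno
    push Not at hno
    have h2 : ∀ g ∈ E, (J g).card * q + 2 ≤ D.card := fun g hg => by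
      have := hno g hg
      omega
    have h3 := Finset.sum_le_sum h2
    rw [Finset.sum_const, smul_eq_mul, Finset.sum_add_distrib, ← Finset.sum_mul,
      Finset.sum_const, smul_eq_mul] at h3
    obtain ⟨A, hA⟩ : ∃ A, A = ∑ g ∈ E, (J g).card := ⟨_, rfl⟩
    rw [← hA] at h3 hsumE
    have h5 : A * q + D.card * q = D.card * (D.card * q) := by
      rw [← mul_assoc, ← hsumE]; ring
    rw [← hEcard] at h5
    nlinarith
  obtain ⟨g, hgE, hg⟩ := hex
  have hg1 : g ≠ 1 := by
    rw [hE] at hgE
    exact (Finset.mem_erase.1 hgE).1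
  refine ⟨g, hg1, ?_⟩
  rw [← hq]
  -- elements of `J g` conjugate `g` to the same element
  have hconj : ∀ d ∈ J g, d⁻¹ * g * d = (a g)⁻¹ := by
    intro d hd
    have hd1 := (Finset.mem_filter.1 hd).1
    have hd2 := (Finset.mem_filter.1 hd).2
    have h1 := hDinv _ hd2
    rw [map_mul, map_inv, hDinv d hd1] at h1
    have h2 : (a g)⁻¹ = (g⁻¹ * d)⁻¹ * d := by
      rw [← h1]; group
    rw [h2]; group
  have hJq : 0 < (J g).card * q := by omega
  have hJne : (J g).Nonempty := Finset.card_pos.1 (Nat.pos_of_mul_pos_right hJq)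
  obtain ⟨d₀, hd₀⟩ := hJne
  have hJC : (J g).card ≤ Nat.card (Subgroup.centralizer ({g} : Set X)) := by
    rw [Nat.card_eq_fintype_card, ← Finset.card_univ]
    refine Finset.card_le_card_of_injOn (fun d => if hd : d ∈ J g then
      ⟨d * d₀⁻¹, by
        rw [Subgroup.mem_centralizer_iff]
        intro w hw
        rw [show w = g from hw]
        have h1 := hconj d hd
        have h2 := hconj d₀ hd₀
        have h3 : d⁻¹ * g * d = d₀⁻¹ * g * d₀ := by rw [h1, h2]
        have h4 : g * d = d * (d₀⁻¹ * g * d₀) := by rw [← h3]; group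
        have : g * (d * d₀⁻¹) = (g * d) * d₀⁻¹ := by group
        rw [this, h4]
        group⟩ else 1) (fun _ _ => Finset.mem_coe.2 (Finset.mem_univ _)) ?_
    intro d hd e he hde
    have hd' : d ∈ J g := Finset.mem_coe.1 hd
    have he' : e ∈ J g := Finset.mem_coe.1 he
    simp only [hd', he', dif_pos] at hde
    have := congrArg Subtype.val hde
    exact mul_right_cancel this
  obtain ⟨C, hC⟩ : ∃ C, C = Nat.card (Subgroup.centralizer ({g} : Set X)) := ⟨_, rfl⟩
  rw [← hC] at hJC ⊢
  rw [Nat.card_eq_fintype_card, hcardX]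
  have h6 : (J g).card * q ≤ C * q := Nat.mul_le_mul_right _ hJC
  have h7 : 1 ≤ C * q := by omega
  have h8 : D.card ≤ 2 * (C * q) := by omega
  calc D.card * q ≤ 2 * (C * q) * q := Nat.mul_le_mul_right _ h8
    _ = 2 * q ^ 2 * C := by ring

end BF

section Main

variable {G : Type*} [Group G] [Finite G] {α : MulAut G}

/-- The fixed subgroup. -/
def fixS (α : MulAut G) : Subgroup G where
  carrier := {x | α x = x}
  mul_mem' := by
    intro a b ha hb
    change α a = a at ha
    change α b = b at hb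
    change α (a * b) = a * b
    rw [map_mul, ha, hb]
  one_mem' := map_one α
  inv_mem' := by
    intro a ha
    change α a = a at ha
    change α a⁻¹ = a⁻¹
    rw [map_inv, ha]

theorem mem_fixS {x : G} : x ∈ fixS α ↔ α x = x := Iff.rfl

theorem orderOf_conj_eq (v y : G) : orderOf (v * y * v⁻¹) = orderOf y := by
  have := orderOf_injective (MulAut.conj v).toMonoidHom (MulAut.conj v).injective y
  simpa using this

theorem conj_mem_Sset {v y : G} (hv : α v = v) (hy : y ∈ Sset α) : v * y * v⁻¹ ∈ Sset α := by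
  refine ⟨by rw [orderOf_conj_eq]; exact hy.1, ?_⟩
  rw [map_mul, map_mul, map_inv, hy.2, hv]
  group

theorem card_fix_le (h : Good α) (hZ : Subgroup.center G = ⊥) :
    Nat.card (fixS α) ≤ Nat.card (Sset α) ^ Nat.card (Sset α) := by
  have hinj : Function.Injective (fun v : fixS α => fun y : Sset α =>
      (⟨(v : G) * y * (v : G)⁻¹, conj_mem_Sset v.2 y.2⟩ : Sset α)) := by
    intro v w he
    have h1 : ((w : G)⁻¹ * v : G) ∈ Subgroup.center G := by
      apply mem_center_of_commute h
      intro y hy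
      have h2 := congrArg Subtype.val (congrFun he ⟨y, hy⟩)
      simp only at h2
      have h3 : (w : G) * y * (w : G)⁻¹ = (v : G) * y * (v : G)⁻¹ := h2.symm
      have h4 : (w : G)⁻¹ * ((v : G) * y * (v : G)⁻¹) * (v : G) = y * ((w : G)⁻¹ * v) := by
        rw [← h3]; group
      rw [← h4]; group
    rw [hZ, Subgroup.mem_bot] at h1
    apply Subtype.ext
    exact (inv_mul_eq_one.1 h1).symm
  have := Nat.card_le_card_of_injective _ hinj
  rwa [Nat.card_fun] at this

theorem card_le_fix_mul (X : Subgroup G) (T : Set G) (hT : ∀ v ∈ X, v * (α v)⁻¹ ∈ T) :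
    Nat.card X ≤ Nat.card T * Nat.card (fixS α) := by
  classical
  let R' : G → G := fun t => if h : ∃ u : X, (u : G) * (α u)⁻¹ = t then (Classical.choose h : X) else 1
  have hR' : ∀ v : X, R' ((v : G) * (α v)⁻¹) * (α (R' ((v : G) * (α v)⁻¹)))⁻¹ = (v : G) * (α v)⁻¹ := by
    intro v
    have hex : ∃ u : X, (u : G) * (α u)⁻¹ = (v : G) * (α v)⁻¹ := ⟨v, rfl⟩
    simp only [R', dif_pos hex]
    exact Classical.choose_spec hex
  have hfix : ∀ v : X, (R' ((v : G) * (α v)⁻¹))⁻¹ * v ∈ fixS α := by
    intro v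
    rw [mem_fixS, map_mul, map_inv]
    have h1 := hR' v
    obtain ⟨u, hu⟩ : ∃ u, u = R' ((v : G) * (α v)⁻¹) := ⟨_, rfl⟩
    rw [← hu] at h1 ⊢
    have h2 : (α u)⁻¹ = u⁻¹ * ((v : G) * (α v)⁻¹) := by
      rw [← h1]; group
    rw [h2]; group
  have hinj : Function.Injective (fun v : X =>
      ((⟨(v : G) * (α v)⁻¹, hT v v.2⟩ : T),
        (⟨(R' ((v : G) * (α v)⁻¹))⁻¹ * v, hfix v⟩ : fixS α))) := by
    intro v w he
    simp only [Prod.mk.injEq, Subtype.mk.injEq] at he
    obtain ⟨h1, h2⟩ := he
    rw [h1] at h2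
    exact Subtype.ext (mul_left_cancel h2)
  have := Nat.card_le_card_of_injective _ hinj
  rwa [Nat.card_prod] at this

/-- Minimal `α`-invariant normal subgroups. -/
structure IsMinN (α : MulAut G) (X : Subgroup G) : Prop where
  normal : X.Normal
  inv : ∀ x ∈ X, α x ∈ X
  ne : X ≠ ⊥
  min : ∀ N : Subgroup G, N.Normal → (∀ x ∈ N, α x ∈ N) → N ≠ ⊥ → N ≤ X → N = X

theorem exists_isMinN (hne : (⊤ : Subgroup G) ≠ ⊥) : ∃ X, IsMinN α X := by
  let 𝒮 : Set (Subgroup G) := {N | N.Normal ∧ (∀ x ∈ N, α x ∈ N) ∧ N ≠ ⊥}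
  have h𝒮 : 𝒮.Nonempty := ⟨⊤, inferInstance, fun _ _ => Subgroup.mem_top _, hne⟩
  obtain ⟨X, hX, hmin⟩ := wellFounded_lt.has_min 𝒮 h𝒮
  refine ⟨X, hX.1, hX.2.1, hX.2.2, ?_⟩
  intro N h1 h2 h3 h4
  by_contra h5
  exact hmin N ⟨h1, h2, h3⟩ (lt_of_le_of_ne h4 h5)

theorem card_abelian (h : Good α) {X : Subgroup G} (hm : IsMinN α X)
    (hab : ∀ a ∈ X, ∀ b ∈ X, a * b = b * a) :
    Nat.card X ≤ Nat.card (fixS α) * (Nat.card (fixS α) + Nat.card (Sset α)) := by
  have hnX := hm.normal
  let Y : Subgroup G :=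
    { carrier := {x | x ∈ X ∧ x ^ 2 = 1}
      mul_mem' := by
        rintro a b ⟨ha, ha2⟩ ⟨hb, hb2⟩
        refine ⟨X.mul_mem ha hb, ?_⟩
        have hc : Commute a b := hab a ha b hb
        rw [hc.mul_pow, ha2, hb2, one_mul]
      one_mem' := ⟨X.one_mem, one_pow 2⟩
      inv_mem' := by
        rintro a ⟨ha, ha2⟩
        exact ⟨X.inv_mem ha, by rw [inv_pow, ha2, inv_one]⟩ }
  have hY : ∀ x, x ∈ Y ↔ x ∈ X ∧ x ^ 2 = 1 := fun _ => Iff.rfl
  have hYn : Y.Normal := by
    constructor
    intro n hn g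
    rw [hY] at hn ⊢
    refine ⟨hnX.conj_mem n hn.1 g, ?_⟩
    rw [conj_pow, hn.2]
    simp
  have hYa : ∀ x ∈ Y, α x ∈ Y := by
    intro x hx
    rw [hY] at hx ⊢
    exact ⟨hm.inv x hx.1, by rw [← map_pow, hx.2, map_one]⟩
  have hfX : ∀ v ∈ X, v * (α v)⁻¹ ∈ X := fun v hv => X.mul_mem hv (X.inv_mem (hm.inv v hv))
  by_cases hY0 : Y = ⊥
  · have hodd : ∀ x ∈ X, Odd (orderOf x) := by
      intro x hx
      rw [← Nat.not_even_iff_odd]
      rintro ⟨k, hk⟩
      have h2 : x ^ k ∈ Y := by
        rw [hY]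
        refine ⟨X.pow_mem hx k, ?_⟩
        rw [← pow_mul, mul_two, ← hk, pow_orderOf_eq_one]
      rw [hY0, Subgroup.mem_bot] at h2
      have h3 := Nat.le_of_dvd ?_ (orderOf_dvd_of_pow_eq_one h2)
      · have := orderOf_pos x
        omega
      · have := orderOf_pos x
        omega
    have h2 := card_le_fix_mul (α := α) X (Sset α) (fun v hv =>
      ⟨hodd _ (hfX v hv), inverted_f h.inv v⟩)
    calc Nat.card X ≤ Nat.card (Sset α) * Nat.card (fixS α) := h2
      _ ≤ Nat.card (fixS α) * (Nat.card (fixS α) + Nat.card (Sset α)) := by nlinarith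
  · have hYX : Y = X := hm.min Y hYn hYa hY0 (fun x hx => hx.1)
    have h2 := card_le_fix_mul (α := α) X (fixS α : Set G) (fun v hv => by
      have h3 : v * (α v)⁻¹ ∈ Y := by rw [hYX]; exact hfX v hv
      have h4 := ((hY _).1 h3).2
      rw [SetLike.mem_coe, mem_fixS, inverted_f h.inv]
      rw [pow_two] at h4
      exact (eq_inv_of_mul_eq_one_left h4).symm)
    calc Nat.card X ≤ Nat.card (fixS α : Set G) * Nat.card (fixS α) := h2
      _ = Nat.card (fixS α) * Nat.card (fixS α) := rfl
      _ ≤ Nat.card (fixS α) * (Nat.card (fixS α) + Nat.card (Sset α)) := by nlinarith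

theorem card_nonabelian (h : Good α) {X : Subgroup G} (hm : IsMinN α X)
    (hab : ¬ ∀ a ∈ X, ∀ b ∈ X, a * b = b * a) {c : ℕ}
    (hc : X.index * (2 * Nat.card (fixS α) ^ 2) ≤ c) :
    Nat.card X ≤ Nat.card (fixS α) + (c * c).factorial := by
  classical
  have hnX := hm.normal
  -- the centre of `X` is trivial
  have hZ0 : X ⊓ Subgroup.centralizer (X : Set G) = ⊥ := by
    by_contra hne
    have h1 : X ⊓ Subgroup.centralizer (X : Set G) = X := by
      refine hm.min _ inferInstance ?_ hne inf_le_left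
      intro x hx
      obtain ⟨hx1, hx2⟩ := Subgroup.mem_inf.1 hx
      refine Subgroup.mem_inf.2 ⟨hm.inv x hx1, ?_⟩
      rw [Subgroup.mem_centralizer_iff] at hx2 ⊢
      intro y hy
      have h2 := hx2 (α y) (hm.inv y hy)
      have h3 := congrArg α h2
      simpa only [map_mul, h.inv] using h3
    apply hab
    intro a ha b hb
    have h2 : b ∈ X ⊓ Subgroup.centralizer (X : Set G) := by rw [h1]; exact hb
    exact ((Subgroup.mem_centralizer_iff.1 h2.2) a ha)
  by_cases hfix : ∀ x ∈ X, α x = x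
  · have : Nat.card X ≤ Nat.card (fixS α) := Subgroup.card_le_of_le fun x hx => hfix x hx
    omega
  push Not at hfix
  obtain ⟨x₀, hx₀, hx₀'⟩ := hfix
  let aX : X →* X := (α.toMonoidHom.comp X.subtype).codRestrict X (fun x => hm.inv x x.2)
  have haX : ∀ x : X, ((aX x : X) : G) = α x := fun _ => rfl
  have ha : ∀ x, aX (aX x) = x := fun x => Subtype.ext (by rw [haX, haX, h.inv])
  have hne : ∃ x, aX x ≠ x := ⟨⟨x₀, hx₀⟩, fun he => hx₀' (congrArg Subtype.val he)⟩
  obtain ⟨g₀, hg₀, hcard⟩ := exists_small_class aX ha hne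
  obtain ⟨g, hg⟩ : ∃ g : G, g = g₀ := ⟨_, rfl⟩
  have hgX : g ∈ X := hg ▸ g₀.2
  have hg1 : g ≠ 1 := fun he => hg₀ (Subtype.ext (by rw [← hg, he]; rfl))
  have hq : Nat.card {x : X // aX x = x} ≤ Nat.card (fixS α) := by
    refine Nat.card_le_card_of_injective
      (fun x : {x : X // aX x = x} => (⟨x.1.1, (congrArg Subtype.val x.2 : α x.1.1 = x.1.1)⟩ : fixS α)) ?_
    intro x y he
    have h2 := congrArg Subtype.val he
    exact Subtype.ext (Subtype.ext h2)
  have hC : Nat.card (Subgroup.centralizer ({g₀} : Set X)) ≤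
      Nat.card (Subgroup.centralizer ({g} : Set G)) := by
    refine Nat.card_le_card_of_injective
      (fun x : Subgroup.centralizer ({g₀} : Set X) =>
        (⟨x.1.1, by
          rw [Subgroup.mem_centralizer_iff]
          intro w hw
          rw [show w = g from hw, hg]
          have := Subgroup.mem_centralizer_iff.1 x.2 g₀ rfl
          exact congrArg Subtype.val this⟩ : Subgroup.centralizer ({g} : Set G))) ?_
    intro x y he
    have h2 := congrArg Subtype.val he
    exact Subtype.ext (Subtype.ext h2)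
  obtain ⟨q, hqdef⟩ : ∃ q, q = Nat.card (fixS α) := ⟨_, rfl⟩
  rw [← hqdef] at hq hc ⊢
  have hX1 : Nat.card X ≤ 2 * q ^ 2 * Nat.card (Subgroup.centralizer ({g} : Set G)) := by
    refine hcard.trans ?_
    exact Nat.mul_le_mul (Nat.mul_le_mul_left _ (Nat.pow_le_pow_left hq 2)) hC
  have hG1 : Nat.card G ≤ c * Nat.card (Subgroup.centralizer ({g} : Set G)) := by
    rw [← X.card_mul_index]
    calc Nat.card X * X.index
        ≤ (2 * q ^ 2 * Nat.card (Subgroup.centralizer ({g} : Set G))) * X.index :=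
          Nat.mul_le_mul_right _ hX1
      _ = (X.index * (2 * q ^ 2)) * Nat.card (Subgroup.centralizer ({g} : Set G)) := by ring
      _ ≤ c * Nat.card (Subgroup.centralizer ({g} : Set G)) := Nat.mul_le_mul_right _ hc
  have hCα : Nat.card (Subgroup.centralizer ({g} : Set G)) ≤
      Nat.card (Subgroup.centralizer ({α g} : Set G)) := by
    refine Nat.card_le_card_of_injective
      (fun x : Subgroup.centralizer ({g} : Set G) =>
        (⟨α x.1, by
          rw [Subgroup.mem_centralizer_iff]
          intro w hw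
          rw [show w = α g from hw]
          have := Subgroup.mem_centralizer_iff.1 x.2 g rfl
          have h2 := congrArg α this
          simpa only [map_mul] using h2⟩ : Subgroup.centralizer ({α g} : Set G))) ?_
    intro x y he
    exact Subtype.ext (α.injective (congrArg Subtype.val he))
  have hindex : ∀ C : Subgroup G, Nat.card G ≤ c * Nat.card C → C.index ≤ c := by
    intro C hC'
    rw [← C.card_mul_index, mul_comm] at hC'
    exact Nat.le_of_mul_le_mul_right hC' Nat.card_pos
  have hi1 := hindex _ hG1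
  have hi2 := hindex _ (hG1.trans (Nat.mul_le_mul_left c hCα))
  -- the core
  obtain ⟨K, hK⟩ : ∃ K, K = Subgroup.centralizer ({g} : Set G) ⊓
      Subgroup.centralizer ({α g} : Set G) := ⟨_, rfl⟩
  have hKi : K.index ≤ c * c := by
    rw [hK]
    exact Subgroup.index_inf_le.trans (Nat.mul_le_mul hi1 hi2)
  have hRi : K.normalCore.index ≤ (c * c).factorial := by
    rw [Subgroup.normalCore_eq_ker, Subgroup.index_ker]
    refine (Subgroup.card_le_card_group _).trans ?_
    rw [Nat.card_perm, ← Subgroup.index_eq_card]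
    exact Nat.factorial_le hKi
  obtain ⟨R, hR⟩ : ∃ R, R = K.normalCore := ⟨_, rfl⟩
  rw [← hR] at hRi
  haveI hRn : R.Normal := hR ▸ K.normalCore_normal
  have hRK : R ≤ K := hR ▸ K.normalCore_le
  -- the normal closure of `g` and `α g`
  obtain ⟨W, hW⟩ : ∃ W, W = Subgroup.normalClosure ({g, α g} : Set G) := ⟨_, rfl⟩
  haveI hWn : W.Normal := hW ▸ Subgroup.normalClosure_normal
  have hgW : g ∈ W := hW ▸ Subgroup.subset_normalClosure (by simp)
  have hαgW : α g ∈ W := hW ▸ Subgroup.subset_normalClosure (by simp)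
  have hWα : ∀ x ∈ W, α x ∈ W := by
    have h1 : W ≤ W.comap α.toMonoidHom := by
      rw [hW]
      refine Subgroup.normalClosure_le_normal ?_
      rw [← hW]
      rintro y (rfl | rfl)
      · exact hαgW
      · show α (α g) ∈ W
        rw [h.inv]
        exact hgW
    exact fun x hx => h1 hx
  have hWX : W = X := by
    refine hm.min W hWn hWα ?_ ?_
    · intro he
      rw [he, Subgroup.mem_bot] at hgW
      exact hg1 hgW
    · rw [hW]
      refine Subgroup.normalClosure_le_normal ?_
      rintro y (rfl | rfl)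
      · exact hgX
      · exact hm.inv _ hgX
  have hXcent : X ≤ Subgroup.centralizer (R : Set G) := by
    rw [← hWX, hW]
    refine Subgroup.normalClosure_le_normal ?_
    intro y hy
    rcases hy with hy | hy
    · rw [hy, SetLike.mem_coe, Subgroup.mem_centralizer_iff]
      intro r hr
      have h1 := hRK hr
      rw [hK] at h1
      have := Subgroup.mem_centralizer_iff.1 (Subgroup.mem_inf.1 h1).1 g rfl
      exact this.symm
    · rw [show y = α g from hy, SetLike.mem_coe, Subgroup.mem_centralizer_iff]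
      intro r hr
      have h1 := hRK hr
      rw [hK] at h1
      have := Subgroup.mem_centralizer_iff.1 (Subgroup.mem_inf.1 h1).2 (α g) rfl
      exact this.symm
  have hRX : ∀ r ∈ R, r ∈ X → r = 1 := by
    intro r hr hrX
    have h1 : r ∈ X ⊓ Subgroup.centralizer (X : Set G) := by
      refine Subgroup.mem_inf.2 ⟨hrX, ?_⟩
      rw [Subgroup.mem_centralizer_iff]
      intro x hx
      exact (Subgroup.mem_centralizer_iff.1 (hXcent hx) r hr).symm
    rw [hZ0, Subgroup.mem_bot] at h1
    exact h1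
  have hinj : Function.Injective (fun x : X => ((x : G) : G ⧸ R)) := by
    intro x y he
    rw [QuotientGroup.eq] at he
    have := hRX _ he (X.mul_mem (X.inv_mem x.2) y.2)
    exact Subtype.ext (inv_mul_eq_one.1 this)
  have h5 := Nat.card_le_card_of_injective _ hinj
  rw [← Subgroup.index_eq_card] at h5
  have := h5.trans hRi
  omega

/-- The bound of the main case. -/
def mainB (M B : ℕ) : ℕ :=
  1 + B * (M ^ M * (M ^ M + M) + (M ^ M + ((B * (2 * (M ^ M) ^ 2)) * (B * (2 * (M ^ M) ^ 2))).factorial))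

/-- The main case: trivial centre, and proper quotients are bounded. -/
theorem card_le_main (h : Good α) (hZ : Subgroup.center G = ⊥) {B : ℕ}
    (hB : ∀ N : Subgroup G, N.Normal → (∀ x ∈ N, α x ∈ N) → N ≠ ⊥ → N.index ≤ B) :
    Nat.card G ≤ mainB (Nat.card (Sset α)) B := by
  by_cases hne : (⊤ : Subgroup G) = ⊥
  · have : Nat.card G ≤ 1 := by
      have h1 : Nat.card (⊤ : Subgroup G) = Nat.card G := Subgroup.card_top
      rw [hne, Subgroup.card_bot] at h1
      exact h1.ge
    unfold mainB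
    omega
  obtain ⟨X, hm⟩ := exists_isMinN (α := α) hne
  obtain ⟨M, hM⟩ : ∃ M, M = Nat.card (Sset α) := ⟨_, rfl⟩
  rw [← hM]
  have hq : Nat.card (fixS α) ≤ M ^ M := by
    rw [hM]; exact card_fix_le h hZ
  obtain ⟨q, hqd⟩ : ∃ q, q = Nat.card (fixS α) := ⟨_, rfl⟩
  have hXi : X.index ≤ B := hB X hm.normal hm.inv hm.ne
  have hc : X.index * (2 * Nat.card (fixS α) ^ 2) ≤ B * (2 * (M ^ M) ^ 2) :=
    Nat.mul_le_mul hXi (Nat.mul_le_mul_left 2 (Nat.pow_le_pow_left hq 2))
  have hX : Nat.card X ≤ M ^ M * (M ^ M + M) + (M ^ M +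
      ((B * (2 * (M ^ M) ^ 2)) * (B * (2 * (M ^ M) ^ 2))).factorial) := by
    by_cases hab : ∀ a ∈ X, ∀ b ∈ X, a * b = b * a
    · have h1 := card_abelian h hm hab
      rw [← hM] at h1
      have h2 : Nat.card (fixS α) * (Nat.card (fixS α) + M) ≤ M ^ M * (M ^ M + M) :=
        Nat.mul_le_mul hq (Nat.add_le_add_right hq M)
      omega
    · have h1 := card_nonabelian h hm hab hc
      omega
  rw [← X.card_mul_index, mul_comm]
  unfold mainB
  have := Nat.mul_le_mul hXi hX
  omega

end Main

section Final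

theorem card_Sset_quot_le {G : Type*} [Group G] [Finite G] {α : MulAut G} (h : Good α)
    (N : Subgroup G) [N.Normal] (hN : ∀ x ∈ N, α x ∈ N) :
    Nat.card (Sset (qa α h.inv N hN)) ≤ Nat.card (Sset α) := by
  refine Nat.card_le_card_of_surjective
    (fun s : Sset α => (⟨((s.1 : G) : G ⧸ N), mk_mem_Sset h N hN s.2⟩ : Sset (qa α h.inv N hN))) ?_
  intro t
  obtain ⟨s, hs, he⟩ := lift_Sset h N hN t.2
  exact ⟨⟨s, hs⟩, Subtype.ext he⟩

theorem le_center_of_card_le {G : Type*} [Group G] [Finite G] {α : MulAut G} (h : Good α)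
    (N : Subgroup G) [N.Normal] (hN : ∀ x ∈ N, α x ∈ N)
    (hc : Nat.card (Sset α) ≤ Nat.card (Sset (qa α h.inv N hN))) : N ≤ Subgroup.center G := by
  have hsurj : Function.Surjective
      (fun s : Sset α => (⟨((s.1 : G) : G ⧸ N), mk_mem_Sset h N hN s.2⟩ :
        Sset (qa α h.inv N hN))) := by
    intro t
    obtain ⟨s, hs, he⟩ := lift_Sset h N hN t.2
    exact ⟨⟨s, hs⟩, Subtype.ext he⟩
  have hb := hsurj.bijective_of_nat_card_le hc
  apply central_of_inj h N hN
  intro s hs s' hs' hm
  have h1 := @hb.1 ⟨s, hs⟩ ⟨s', hs'⟩ (Subtype.ext (QuotientGroup.eq.2 hm))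
  exact congrArg Subtype.val h1

theorem center_inv {G : Type*} [Group G] (α : MulAut G) :
    ∀ x ∈ Subgroup.center G, α x ∈ Subgroup.center G := by
  intro x hx
  rw [Subgroup.mem_center_iff] at hx ⊢
  intro g
  have h1 := hx (α.symm g)
  have h2 := congrArg α h1
  simpa only [map_mul, MulEquiv.apply_symm_apply] using h2

/-- The bound exists. -/
theorem bound_exists : ∀ m : ℕ, ∃ B : ℕ, ∀ (G : Type) [Group G] [Finite G] (α : MulAut G),
    Good α → Nat.card (Sset α) ≤ m → Nat.card G ≤ B := by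
  intro m
  induction m with
  | zero =>
    refine ⟨0, fun G _ _ α _ hc => ?_⟩
    exfalso
    haveI : Nonempty (Sset α) := ⟨⟨1, one_mem_Sset α⟩⟩
    have : 0 < Nat.card (Sset α) := Nat.card_pos
    omega
  | succ m ih =>
    obtain ⟨B, hB⟩ := ih
    obtain ⟨k₁, hk₁⟩ : ∃ k₁, k₁ = B + mainB (m + 1) B + (m + 1) * schurB B := ⟨_, rfl⟩
    refine ⟨B + (m + 1) * schurB k₁, fun G _ _ α h hc => ?_⟩
    by_cases hc' : Nat.card (Sset α) ≤ m
    · have := hB G α h hc'
      omega
    have hS : Nat.card (Sset α) = m + 1 := by omega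
    have hQ : (Subgroup.center G).index ≤ k₁ := by
      rw [Subgroup.index_eq_card]
      have hgq := good_qa h (Subgroup.center G) (center_inv α)
      have hcq := card_Sset_quot_le h (Subgroup.center G) (center_inv α)
      obtain ⟨β, hβ⟩ : ∃ β, β = qa α h.inv (Subgroup.center G) (center_inv α) := ⟨_, rfl⟩
      rw [← hβ] at hgq hcq
      by_cases hc2 : Nat.card (Sset β) ≤ m
      · have := hB _ β hgq hc2
        omega
      have hSβ : Nat.card (Sset β) = m + 1 := by omega
      by_cases hZ : Subgroup.center (G ⧸ Subgroup.center G) = ⊥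
      · have h1 := card_le_main hgq hZ (B := B) (by
          intro N hn hNi hNb
          have hn' : N.Normal := hn
          rw [Subgroup.index_eq_card]
          apply hB _ (qa β hgq.inv N hNi) (good_qa hgq N hNi)
          by_contra hnot
          apply hNb
          have hle := le_center_of_card_le hgq N hNi (by omega)
          rw [hZ] at hle
          exact le_bot_iff.1 hle)
        rw [hSβ] at h1
        omega
      · -- the second centre
        obtain ⟨N₂, hN₂⟩ : ∃ N₂, N₂ = (Subgroup.center (G ⧸ Subgroup.center G)).comap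
            (QuotientGroup.mk' (Subgroup.center G)) := ⟨_, rfl⟩
        haveI hN₂n : N₂.Normal := hN₂ ▸ Subgroup.Normal.comap inferInstance _
        have hN₂i : ∀ x ∈ N₂, α x ∈ N₂ := by
          intro x hx
          rw [hN₂] at hx ⊢
          rw [Subgroup.mem_comap] at hx ⊢
          have h1 := center_inv β _ hx
          rw [hβ] at h1
          exact h1
        have hcase : ¬ Nat.card (Sset α) ≤ Nat.card (Sset (qa α h.inv N₂ hN₂i)) := by
          intro hle
          have h2 := le_center_of_card_le h N₂ hN₂i hle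
          apply hZ
          rw [eq_bot_iff]
          intro x hx
          obtain ⟨y, rfl⟩ := QuotientGroup.mk_surjective x
          have h3 : y ∈ N₂ := by rw [hN₂]; exact hx
          rw [Subgroup.mem_bot]
          exact (QuotientGroup.eq_one_iff y).2 (h2 h3)
        have h4 := hB _ (qa α h.inv N₂ hN₂i) (good_qa h N₂ hN₂i) (by omega)
        rw [← Subgroup.index_eq_card, hN₂,
          Subgroup.index_comap_of_surjective _ (QuotientGroup.mk'_surjective _)] at h4
        have h5 := card_le_of_index_center hgq h4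
        rw [hSβ] at h5
        omega
    have := card_le_of_index_center h hQ
    rw [hS] at this
    omega

/-- The theorem: `|G|` is bounded in terms of the number of odd-order elements inverted by `α`. -/
theorem exists_card_bound : ∃ f : ℕ → ℕ, ∀ (G : Type) [Group G] [Finite G] [Nontrivial G]
    (α : MulAut G), orderOf α = 2 →
    Subgroup.closure (Set.range (fun c : G => c * (α c)⁻¹)) = ⊤ →
      Nat.card G ≤ f (Nat.card {g : G // Odd (orderOf g) ∧ α g = g⁻¹}) := by
  choose f hf using bound_exists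
  refine ⟨f, fun G _ _ _ α hα hG => ?_⟩
  have hinv : ∀ g, α (α g) = g := by
    intro g
    have h1 : α ^ 2 = 1 := by rw [← hα]; exact pow_orderOf_eq_one α
    have h2 := congrArg (fun φ : MulAut G => φ g) h1
    simpa [pow_two] using h2
  exact hf _ G α ⟨hinv, hG⟩ le_rfl

end Final

end Cfsg.Agent.Lib.Transfer.Inverted
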