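import Cfsg.Agent.Lib.Transfer.ClassSize

/-!
# Groups with no class size divisible by `4`

`main`: given the Odd Order statement in the universe of `G`, a finite group in which no conjugacy
class has size divisible by `4` is solvable.
-/

set_option autoImplicit false
set_option linter.unusedSectionVars false

namespace Cfsg.Agent.Lib.Transfer.NoFour

open Cfsg Cfsg.Agent.Lib.Transfer.ClassSize

universe u

variable {G : Type u} [Group G] [Finite G]

/-- The class-size hypothesis. -/
def NF (G : Type u) [Group G] : Prop :=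
  ∀ x : G, ¬ 4 ∣ (Subgroup.centralizer ({x} : Set G)).index

/-- A Sylow `2`-subgroup of the centralizer of `x` has index at most `2` in a Sylow `2`-subgroup of
`G`. -/
theorem exists_large {x : G} (hx : ¬ 4 ∣ (Subgroup.centralizer ({x} : Set G)).index)
    (T : Sylow 2 G) :
    ∃ (D : Subgroup G) (a : G), D ≤ (T : Subgroup G) ∧ (Nat.card T ≤ 2 * Nat.card D) ∧
      ∀ z ∈ D, z * (a * x * a⁻¹) = (a * x * a⁻¹) * z := by
  classical
  haveI : Fact (Nat.Prime 2) := ⟨Nat.prime_two⟩
  set C : Subgroup G := Subgroup.centralizer ({x} : Set G) with hC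
  obtain ⟨S₀⟩ : Nonempty (Sylow 2 C) := inferInstance
  set S : Subgroup G := (S₀ : Subgroup C).map C.subtype with hS
  have hSp : IsPGroup 2 S := S₀.isPGroup'.map C.subtype
  obtain ⟨T', hT'⟩ := hSp.exists_le_sylow
  obtain ⟨a, ha⟩ : ∃ a : G, a • T' = T := MulAction.exists_smul_eq G T' T
  have hcardS : Nat.card S = Nat.card S₀ := by
    rw [hS]
    exact Nat.card_congr (Subgroup.equivMapOfInjective _ _ Subtype.val_injective).symm.toEquiv
  -- the index of `S` in `T'`
  have hindex : Nat.card T' ≤ 2 * Nat.card S := by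
    have h1 : Nat.card C * C.index = Nat.card G := Subgroup.card_mul_index C
    have h2 : ¬ 2 ∣ (S₀ : Subgroup C).index := S₀.not_dvd_index
    have h3 : Nat.card S₀ * (S₀ : Subgroup C).index = Nat.card C :=
      Subgroup.card_mul_index (S₀ : Subgroup C)
    have h4 : ¬ 2 ∣ (T' : Subgroup G).index := T'.not_dvd_index
    have h5 : Nat.card T' * (T' : Subgroup G).index = Nat.card G := Subgroup.card_mul_index _
    obtain ⟨k, hk⟩ := IsPGroup.iff_card.mp T'.isPGroup'
    -- `C.index = 2^e * m`, `e ≤ 1`.
    have h6 : Nat.card T' * (T' : Subgroup G).index =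
        (Nat.card S * C.index) * (S₀ : Subgroup C).index := by
      rw [h5, ← h1, ← h3, hcardS]
      ring
    have h7 : Nat.card T' ∣ 2 * Nat.card S := by
      have hcop : Nat.Coprime (Nat.card T') ((T' : Subgroup G).index * (S₀ : Subgroup C).index) := by
        rw [hk]
        apply Nat.Coprime.pow_left
        rw [Nat.Prime.coprime_iff_not_dvd Nat.prime_two, Nat.Prime.dvd_mul Nat.prime_two]
        push Not
        exact ⟨h4, h2⟩
      -- write `C.index = 2 ^ e * m`
      obtain ⟨e, m, hm, hem⟩ := Nat.exists_eq_two_pow_mul_odd (Subgroup.index_ne_zero_of_finite (H := C))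
      have he : e ≤ 1 := by
        by_contra hcon
        push Not at hcon
        apply hx
        rw [hem]
        exact Dvd.dvd.mul_right (pow_dvd_pow 2 hcon) _
      have h8 : Nat.card T' ∣ (Nat.card S * 2 ^ e) * (m * (S₀ : Subgroup C).index) := by
        refine ⟨(T' : Subgroup G).index, ?_⟩
        rw [h6, hem]
        ring
      have hcop2 : Nat.Coprime (Nat.card T') (m * (S₀ : Subgroup C).index) := by
        rw [hk]
        apply Nat.Coprime.pow_left
        rw [Nat.Prime.coprime_iff_not_dvd Nat.prime_two, Nat.Prime.dvd_mul Nat.prime_two]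
        push Not
        exact ⟨fun h => (Nat.not_even_iff_odd.mpr hm) (even_iff_two_dvd.mpr h), h2⟩
      have h9 := hcop2.dvd_of_dvd_mul_right h8
      refine h9.trans ?_
      rw [mul_comm]
      exact Nat.mul_dvd_mul (by simpa using pow_dvd_pow 2 he) (dvd_refl _)
    exact Nat.le_of_dvd (by have := Nat.card_pos (α := S); omega) h7
  refine ⟨S.map (MulAut.conj a).toMonoidHom, a, ?_, ?_, ?_⟩
  · rw [← ha]
    intro z hz
    obtain ⟨w, hw, rfl⟩ := hz
    have : w ∈ (T' : Subgroup G) := hT' hw
    exact ⟨w, this, rfl⟩
  · have hc1 : Nat.card (S.map (MulAut.conj a).toMonoidHom) = Nat.card S :=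
      Nat.card_congr (Subgroup.equivMapOfInjective _ _
        (MulAut.conj a).injective).symm.toEquiv
    have hc2 : Nat.card T = Nat.card T' := Nat.card_congr (Sylow.equiv T T').toEquiv
    rw [hc1, hc2]
    exact hindex
  · intro z hz
    obtain ⟨w, hw, rfl⟩ := hz
    obtain ⟨⟨v, hv⟩, -, rfl⟩ := hw
    have h1 : x * v = v * x := (Subgroup.mem_centralizer_iff.mp hv x rfl)
    simp only [MulEquiv.coe_toMonoidHom, MulAut.conj_apply, Subgroup.coe_subtype]
    calc a * v * a⁻¹ * (a * x * a⁻¹) = a * (v * x) * a⁻¹ := by group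
      _ = a * (x * v) * a⁻¹ := by rw [h1]
      _ = a * x * a⁻¹ * (a * v * a⁻¹) := by group

/-- Pure counting: a surjection `f : T → Q` constant on the orbits of an injection `σ` such that
orbits off the fixed points have at least `3` elements. -/
theorem three_mul_card_le {T Q : Type*} [Fintype T] [Fintype Q] [DecidableEq T] [DecidableEq Q]
    (f : T → Q) (hf : Function.Surjective f) (σ : T → T) (hinj : Function.Injective σ)
    (hσ : ∀ t, f (σ t) = f t) (h3 : ∀ t, σ t ≠ t → σ (σ t) ≠ t) :
    3 * Fintype.card Q ≤ 2 * (Finset.univ.filter (fun t => σ t = t)).card + Fintype.card T := by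
  classical
  set C : Finset T := Finset.univ.filter (fun t => σ t = t) with hC
  set B : Finset T := Finset.univ.filter (fun t => σ t ≠ t ∧ f t ∉ C.image f) with hB
  have hnot : ∀ t, σ t ≠ t → σ (σ t) ≠ σ t := fun t ht h => ht (hinj h)
  have hfib : ∀ a ∈ B.image f, 3 ≤ (B.filter (fun x => f x = a)).card := by
    intro a ha
    obtain ⟨t, ht, rfl⟩ := Finset.mem_image.mp ha
    have ht' := (Finset.mem_filter.mp ht).2
    have h1 : σ t ∈ B := by
      refine Finset.mem_filter.mpr ⟨Finset.mem_univ _, hnot t ht'.1, ?_⟩
      rw [hσ]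
      exact ht'.2
    have h2 : σ (σ t) ∈ B := by
      refine Finset.mem_filter.mpr ⟨Finset.mem_univ _, hnot _ (hnot t ht'.1), ?_⟩
      rw [hσ, hσ]
      exact ht'.2
    have hsub : ({t, σ t, σ (σ t)} : Finset T) ⊆ B.filter (fun x => f x = f t) := by
      intro z hz
      simp only [Finset.mem_insert, Finset.mem_singleton] at hz
      rcases hz with rfl | rfl | rfl
      · exact Finset.mem_filter.mpr ⟨ht, rfl⟩
      · exact Finset.mem_filter.mpr ⟨h1, hσ _⟩
      · exact Finset.mem_filter.mpr ⟨h2, by rw [hσ, hσ]⟩
    have hc : ({t, σ t, σ (σ t)} : Finset T).card = 3 := by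
      refine Finset.card_eq_three.mpr ⟨t, σ t, σ (σ t), ht'.1.symm, (h3 t ht'.1).symm, 
        (hnot t ht'.1).symm, rfl⟩
    calc 3 = _ := hc.symm
      _ ≤ _ := Finset.card_le_card hsub
  have h1 : 3 * (B.image f).card ≤ B.card := Finset.mul_card_image_le_card B 3 hfib
  have h2 : (Finset.univ : Finset Q) ⊆ C.image f ∪ B.image f := by
    intro a _
    obtain ⟨t, rfl⟩ := hf a
    by_cases hc : f t ∈ C.image f
    · exact Finset.mem_union_left _ hc
    · refine Finset.mem_union_right _ (Finset.mem_image_of_mem _ ?_)
      refine Finset.mem_filter.mpr ⟨Finset.mem_univ _, ?_, hc⟩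
      intro h
      exact hc (Finset.mem_image_of_mem _ (Finset.mem_filter.mpr ⟨Finset.mem_univ _, h⟩))
  have h3' : Fintype.card Q ≤ C.card + (B.image f).card := by
    calc Fintype.card Q = (Finset.univ : Finset Q).card := rfl
      _ ≤ (C.image f ∪ B.image f).card := Finset.card_le_card h2
      _ ≤ (C.image f).card + (B.image f).card := Finset.card_union_le _ _
      _ ≤ C.card + (B.image f).card := by
        have := Finset.card_image_le (s := C) (f := f)
        omega
  have h4 : C.card + B.card ≤ Fintype.card T := by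
    have hd : Disjoint C B := by
      rw [Finset.disjoint_left]
      intro t h1 h2
      exact (Finset.mem_filter.mp h2).2.1 (Finset.mem_filter.mp h1).2
    rw [← Finset.card_union_of_disjoint hd]
    exact Finset.card_le_univ _
  omega

/-- The involutions of `G`. -/
def Invol (G : Type u) [Group G] : Type u := {x : G // x ^ 2 = 1 ∧ x ≠ 1}

instance : Finite (Invol G) := Subtype.finite

instance : MulAction G (Invol G) where
  smul g x := ⟨g * x.1 * g⁻¹, by
      have := x.2.1
      rw [sq] at this ⊢
      calc g * x.1 * g⁻¹ * (g * x.1 * g⁻¹) = g * (x.1 * x.1) * g⁻¹ := by group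
        _ = 1 := by rw [this]; group, by
      intro h
      apply x.2.2
      have : x.1 = g⁻¹ * (g * x.1 * g⁻¹) * g := by group
      rw [this, h]
      group⟩
  one_smul x := Subtype.ext (by change 1 * x.1 * 1⁻¹ = x.1; group)
  mul_smul a b x := Subtype.ext (by change (a * b) * x.1 * (a * b)⁻¹ = a * (b * x.1 * b⁻¹) * a⁻¹; group)

theorem Invol.smul_val (g : G) (x : Invol G) : (g • x).1 = g * x.1 * g⁻¹ := rfl

/-- Lower bound for the fixed points. -/
theorem card_le_fixedBy (hNF : NF G) (T : Sylow 2 G) (hT : ∀ t ∈ (T : Subgroup G), t ^ 2 = 1) (g : G) :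
    Nat.card T ≤ 2 * Nat.card (MulAction.fixedBy (Invol G) g) + 2 := by
  classical
  obtain ⟨D, a, hDT, hcard, hcomm⟩ := exists_large (hNF g) T
  let φ : D → Option (MulAction.fixedBy (Invol G) g) := fun z =>
    if hz : (z : G) = 1 then none else some ⟨(⟨a⁻¹ * z * a, by
        have := hT z (hDT z.2)
        rw [sq] at this ⊢
        calc a⁻¹ * z * a * (a⁻¹ * z * a) = a⁻¹ * ((z : G) * z) * a := by group
          _ = 1 := by rw [this]; group, by
        intro h
        apply hz
        have : (z : G) = a * (a⁻¹ * z * a) * a⁻¹ := by group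
        rw [this, h]
        group⟩ : Invol G), by
        apply Subtype.ext
        have h1 := hcomm z z.2
        change g * (a⁻¹ * z * a) * g⁻¹ = a⁻¹ * z * a
        have h2 : a * g * a⁻¹ * z * (a * g * a⁻¹)⁻¹ = z := by
          rw [← h1]; group
        calc g * (a⁻¹ * z * a) * g⁻¹ = a⁻¹ * (a * g * a⁻¹ * z * (a * g * a⁻¹)⁻¹) * a := by group
          _ = _ := by rw [h2]⟩
  let Ψ : Option (MulAction.fixedBy (Invol G) g) → G := fun o => o.elim 1 (fun u => a * u.1.1 * a⁻¹)
  have hL : ∀ z : D, Ψ (φ z) = z := by
    intro z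
    by_cases hz : (z : G) = 1
    · simp only [φ, dif_pos hz, Ψ, Option.elim_none, hz]
    · simp only [φ, dif_neg hz, Ψ, Option.elim_some]
      group
  have hφ : Function.Injective φ := fun z w h => Subtype.ext (by rw [← hL z, ← hL w, h])
  have h1 : Nat.card D ≤ Nat.card (Option (MulAction.fixedBy (Invol G) g)) :=
    Nat.card_le_card_of_injective φ hφ
  rw [Finite.card_option] at h1
  omega

/-- If the Sylow `2`-subgroup is elementary abelian, the number of classes of involutions is at
least `(|T| - 1) / 2`. -/
theorem card_orbits_lower (hNF : NF G) (T : Sylow 2 G) (hT : ∀ t ∈ (T : Subgroup G), t ^ 2 = 1) :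
    Nat.card T ≤ 2 * Nat.card (MulAction.orbitRel.Quotient G (Invol G)) + 1 := by
  classical
  haveI := Fintype.ofFinite G
  haveI := Fintype.ofFinite (Invol G)
  haveI : Fintype (MulAction.orbitRel.Quotient G (Invol G)) :=
    Fintype.ofFinite _
  haveI : ∀ a : G, Fintype (MulAction.fixedBy (Invol G) a) := fun a => Fintype.ofFinite _
  have hB := MulAction.sum_card_fixedBy_eq_card_orbits_mul_card_group G (Invol G)
  -- every term, with the extra term at `1`
  have h1 : Nat.card T ≤ Nat.card (MulAction.fixedBy (Invol G) (1 : G)) + 1 := by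
    have : Nat.card (MulAction.fixedBy (Invol G) (1 : G)) = Nat.card (Invol G) := by
      rw [MulAction.fixedBy_one_eq_univ]
      exact Nat.card_congr (Equiv.Set.univ _)
    rw [this]
    let φ : T → Option (Invol G) := fun z =>
      if hz : (z : G) = 1 then none else some ⟨z, hT z z.2, hz⟩
    let Ψ : Option (Invol G) → G := fun o => o.elim 1 (fun u => u.1)
    have hL : ∀ z : T, Ψ (φ z) = z := by
      intro z
      by_cases hz : (z : G) = 1
      · simp only [φ, dif_pos hz, Ψ, Option.elim_none, hz]
      · simp only [φ, dif_neg hz, Ψ]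
        rfl
    have hφ : Function.Injective φ := fun z w h => Subtype.ext (by rw [← hL z, ← hL w, h])
    have h1 : Nat.card T ≤ Nat.card (Option (Invol G)) :=
      Nat.card_le_card_of_injective φ hφ
    rwa [Finite.card_option] at h1
  set k := Fintype.card (MulAction.orbitRel.Quotient G (Invol G)) with hk
  have hk' : Nat.card (MulAction.orbitRel.Quotient G (Invol G)) = k := Nat.card_eq_fintype_card
  rw [hk']
  set n := Nat.card T with hn
  have hn1 : 1 ≤ n := Nat.card_pos
  have key : ∀ a : G, n ≤ 2 * Fintype.card (MulAction.fixedBy (Invol G) a) + 2 := by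
    intro a
    have := card_le_fixedBy hNF T hT a
    rw [Nat.card_eq_fintype_card (α := MulAction.fixedBy (Invol G) a)] at this
    exact this
  have h3 : n < 2 * Fintype.card (MulAction.fixedBy (Invol G) (1 : G)) + 2 := by
    rw [Nat.card_eq_fintype_card (α := MulAction.fixedBy (Invol G) (1 : G))] at h1
    omega
  have h4 : ∑ a : G, n < ∑ a : G, (2 * Fintype.card (MulAction.fixedBy (Invol G) a) + 2) :=
    Finset.sum_lt_sum (fun a _ => key a) ⟨1, Finset.mem_univ _, h3⟩
  simp only [Finset.sum_const, Finset.card_univ, smul_eq_mul, Finset.sum_add_distrib,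
    ← Finset.mul_sum] at h4
  rw [hB] at h4
  have hG : 0 < Fintype.card G := Fintype.card_pos
  by_contra hcon
  push Not at hcon
  have h5 : 2 * k + 2 ≤ n := by omega
  have h6 : Fintype.card G * (2 * k + 2) ≤ Fintype.card G * n := Nat.mul_le_mul_left _ h5
  nlinarith

/-- An odd order element whose square commutes with `t` commutes with `t`. -/
theorem commute_of_sq_commute {y t : G} (hy : Odd (orderOf y)) (h : Commute (y ^ 2) t) :
    Commute y t := by
  obtain ⟨m, hm⟩ := hy
  have h1 : y = (y ^ 2) ^ (m + 1) := by
    rw [← pow_mul]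
    have : 2 * (m + 1) = orderOf y + 1 := by omega
    rw [this, pow_succ, pow_orderOf_eq_one, one_mul]
  rw [h1]
  exact h.pow_left _

/-- If `T` is an elementary abelian Sylow `2`-subgroup moved by an odd element `y` of its
normalizer, then the centralizer in `T` of `y` has index at least `4`. -/
theorem four_mul_le (T : Sylow 2 G) (hT : ∀ t ∈ (T : Subgroup G), t ^ 2 = 1) {y u : G}
    (hyT : ∀ t ∈ (T : Subgroup G), y * t * y⁻¹ ∈ (T : Subgroup G)) (hy : Odd (orderOf y))
    (hu : u ∈ (T : Subgroup G)) (huy : y * u * y⁻¹ ≠ u) :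
    4 * Nat.card ((Subgroup.centralizer ({y} : Set G)).subgroupOf (T : Subgroup G)) ≤ Nat.card T := by
  classical
  haveI : Fact (Nat.Prime 2) := ⟨Nat.prime_two⟩
  set H : Subgroup T := (Subgroup.centralizer ({y} : Set G)).subgroupOf (T : Subgroup G) with hH
  have hmem : ∀ t : T, t ∈ H ↔ y * t * y⁻¹ = t := by
    intro t
    rw [hH, Subgroup.mem_subgroupOf, Subgroup.mem_centralizer_iff]
    constructor
    · intro h
      have := h y rfl
      rw [this]
      group
    · rintro h _ rfl
      rw [eq_comm, ← eq_mul_inv_iff_mul_eq] 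
      exact h.symm
  have hcomm : ∀ a ∈ (T : Subgroup G), ∀ b ∈ (T : Subgroup G), a * b = b * a := by
    intro a ha b hb
    have h1 := hT _ (Subgroup.mul_mem _ ha hb)
    have h2 := hT _ ha
    have h3 := hT _ hb
    rw [sq] at h1 h2 h3
    calc a * b = a * (a * b * (a * b)) * b := by rw [h1]; group
      _ = (a * a) * b * a * (b * b) := by group
      _ = b * a := by rw [h2, h3]; group
  have hcard := Subgroup.card_mul_index H
  obtain ⟨k, hk⟩ := IsPGroup.iff_card.mp T.isPGroup'
  have hdvd : H.index ∣ 2 ^ k := by
    rw [← hk, ← hcard]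
    exact dvd_mul_left _ _
  obtain ⟨e, -, he⟩ := (Nat.dvd_prime_pow Nat.prime_two).mp hdvd
  have h1 : e ≠ 0 := by
    rintro rfl
    rw [pow_zero, Subgroup.index_eq_one] at he
    have : (⟨u, hu⟩ : T) ∈ H := by rw [he]; exact Subgroup.mem_top _
    exact huy ((hmem _).mp this)
  have h2 : e ≠ 1 := by
    rintro rfl
    rw [pow_one] at he
    have hu' : (⟨u, hu⟩ : T) ∉ H := fun h => huy ((hmem _).mp h)
    let v : T := ⟨y * u * y⁻¹, hyT u hu⟩
    have hv : v ∉ H := by
      intro h
      apply huy
      have h3 := (hmem _).mp h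
      have h4 : y * (y * u * y⁻¹) = (y * u * y⁻¹) * y := mul_inv_eq_iff_eq_mul.mp h3
      exact mul_left_cancel (a := y) (by rw [h4]; group)
    have hw : (⟨u, hu⟩ : T) * v ∈ H := by
      rw [Subgroup.mul_mem_iff_of_index_two he]
      exact ⟨fun h => absurd h hu', fun h => absurd h hv⟩
    have h3 := (hmem _).mp hw
    change y * (u * (y * u * y⁻¹)) * y⁻¹ = u * (y * u * y⁻¹) at h3
    have h4 : Commute (y ^ 2) u := by
      have h5 : y * (y * u * y⁻¹) * y⁻¹ ∈ (T : Subgroup G) := hyT _ (hyT u hu)
      have h6 : (y * u * y⁻¹) * (y * (y * u * y⁻¹) * y⁻¹) = u * (y * u * y⁻¹) := by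
        rw [← h3]
        group
      rw [hcomm u hu _ (hyT u hu)] at h6
      have h7 := mul_left_cancel h6
      change y ^ 2 * u = u * y ^ 2
      rw [sq]
      calc y * y * u = (y * (y * u * y⁻¹) * y⁻¹) * (y * y) := by group
        _ = u * (y * y) := by rw [h7]
    apply huy
    have h5 : y * u = u * y := commute_of_sq_commute hy h4
    rw [h5]
    group
  have h3 : 4 ∣ H.index := by
    rw [he]
    have : 2 ≤ e := by omega
    exact (pow_dvd_pow 2 this : 2 ^ 2 ∣ 2 ^ e)
  obtain ⟨c, hc⟩ := h3
  have hc0 : 0 < c := by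
    rcases Nat.eq_zero_or_pos c with rfl | h
    · exact absurd hc (by simpa using Subgroup.index_ne_zero_of_finite)
    · exact h
  calc 4 * Nat.card H ≤ Nat.card H * (4 * c) := by nlinarith [Nat.card_pos (α := H)]
    _ = Nat.card T := by rw [← hc, hcard]

/-- Upper bound for the number of classes of involutions. -/
theorem card_orbits_upper (T : Sylow 2 G) (hT : ∀ t ∈ (T : Subgroup G), t ^ 2 = 1) {y u : G}
    (hyT : ∀ t ∈ (T : Subgroup G), y * t * y⁻¹ ∈ (T : Subgroup G)) (hy : Odd (orderOf y))
    (hu : u ∈ (T : Subgroup G)) (huy : y * u * y⁻¹ ≠ u) :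
    2 * Nat.card (MulAction.orbitRel.Quotient G (Invol G)) + 2 ≤ Nat.card T := by
  classical
  haveI : Fact (Nat.Prime 2) := ⟨Nat.prime_two⟩
  haveI := Fintype.ofFinite G
  haveI := Fintype.ofFinite (T : Subgroup G)
  haveI := Fintype.ofFinite (Invol G)
  haveI : Fintype (MulAction.orbitRel.Quotient G (Invol G)) := Fintype.ofFinite _
  have h4 := four_mul_le T hT hyT hy hu huy
  let f : ↥(T : Subgroup G) → Option (MulAction.orbitRel.Quotient G (Invol G)) := fun t =>
    if ht : (t : G) = 1 then none else
      some (Quotient.mk'' (⟨t, hT t t.2, ht⟩ : Invol G))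
  let σ : ↥(T : Subgroup G) → ↥(T : Subgroup G) := fun t => ⟨y * t * y⁻¹, hyT t t.2⟩
  have hinj : Function.Injective σ := by
    intro a b h
    have h1 : y * (a : G) * y⁻¹ = y * b * y⁻¹ := congrArg Subtype.val h
    apply Subtype.ext
    simpa using h1
  have hone : ∀ t : (T : Subgroup G), ((σ t : (T : Subgroup G)) : G) = 1 ↔ (t : G) = 1 := by
    intro t
    change y * (t : G) * y⁻¹ = 1 ↔ _
    constructor
    · intro h
      have : (t : G) = y⁻¹ * (y * t * y⁻¹) * y := by group
      rw [this, h]
      group
    · intro h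
      rw [h]
      group
  have hσ : ∀ t, f (σ t) = f t := by
    intro t
    by_cases ht : (t : G) = 1
    · simp only [f, dif_pos ht, dif_pos ((hone t).mpr ht)]
    · have ht' : ¬ ((σ t : (T : Subgroup G)) : G) = 1 := fun h => ht ((hone t).mp h)
      simp only [f, dif_neg ht, dif_neg ht']
      congr 1
      apply Quotient.sound'
      change _ ∈ MulAction.orbit G _
      exact ⟨y, rfl⟩
  have hf : Function.Surjective f := by
    intro o
    cases o with
    | none => exact ⟨1, by simp [f]⟩
    | some q =>
      induction q using Quotient.inductionOn' with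
      | h x =>
        have hp : IsPGroup 2 (Subgroup.zpowers (x.1 : G)) :=
          IsPGroup.of_card (n := 1) (by
            rw [Nat.card_zpowers, orderOf_eq_prime x.2.1 x.2.2]; norm_num)
        obtain ⟨S, hS⟩ := hp.exists_le_sylow
        obtain ⟨a, ha⟩ : ∃ a : G, a • S = T := MulAction.exists_smul_eq G S T
        have hmemS : (x.1 : G) ∈ (S : Subgroup G) := hS (Subgroup.mem_zpowers _)
        have hmemT : a * x.1 * a⁻¹ ∈ (T : Subgroup G) := by
          rw [← ha]
          exact ⟨x.1, hmemS, rfl⟩
        have hne : a * x.1 * a⁻¹ ≠ 1 := (a • x).2.2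
        refine ⟨⟨a * x.1 * a⁻¹, hmemT⟩, ?_⟩
        simp only [f, dif_neg hne]
        congr 1
        apply Quotient.sound'
        change _ ∈ MulAction.orbit G _
        exact ⟨a, rfl⟩
  have h3 : ∀ t, σ t ≠ t → σ (σ t) ≠ t := by
    intro t h1 h2
    apply h1
    apply Subtype.ext
    have h5 : y * (y * (t : G) * y⁻¹) * y⁻¹ = t := congrArg Subtype.val h2
    have h6 : Commute (y ^ 2) (t : G) := by
      change y ^ 2 * t = t * y ^ 2
      rw [sq]
      calc y * y * t = (y * (y * (t : G) * y⁻¹) * y⁻¹) * (y * y) := by group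
        _ = t * (y * y) := by rw [h5]
    have h7 : y * (t : G) = t * y := commute_of_sq_commute hy h6
    change y * (t : G) * y⁻¹ = t
    rw [h7]
    group
  have h5 := three_mul_card_le f hf σ hinj hσ h3
  have h6 : Nat.card ((Subgroup.centralizer ({y} : Set G)).subgroupOf (T : Subgroup G)) =
      (Finset.univ.filter (fun t => σ t = t)).card := by
    refine Nat.subtype_card _ (fun t => ?_)
    simp only [Finset.mem_filter, Finset.mem_univ, true_and]
    rw [Subgroup.mem_subgroupOf, Subgroup.mem_centralizer_iff]
    constructor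
    · intro h w hw
      rw [Set.mem_singleton_iff.mp hw]
      have h5 : y * (t : G) * y⁻¹ = t := congrArg Subtype.val h
      exact (mul_inv_eq_iff_eq_mul.mp h5)
    · intro h
      apply Subtype.ext
      change y * (t : G) * y⁻¹ = t
      rw [mul_inv_eq_iff_eq_mul]
      exact h y rfl
  rw [← h6, Fintype.card_option] at h5
  rw [Nat.card_eq_fintype_card (α := MulAction.orbitRel.Quotient G (Invol G))]
  have hT' : Nat.card (T : Subgroup G) = Fintype.card (T : Subgroup G) := Nat.card_eq_fintype_card
  omega

/-- The elementary abelian case. -/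
theorem solvable_of_elementary (ft : ∀ (H : Type u) [Group H] [Finite H], Odd (Nat.card H) →
    Group.IsSolvable H) (hNF : NF G) (T : Sylow 2 G) (hT : ∀ t ∈ (T : Subgroup G), t ^ 2 = 1) :
    Group.IsSolvable G := by
  classical
  haveI : Fact (Nat.Prime 2) := ⟨Nat.prime_two⟩
  have hcomm : ∀ a ∈ (T : Subgroup G), ∀ b ∈ (T : Subgroup G), a * b = b * a := by
    intro a ha b hb
    have h1 := hT _ (Subgroup.mul_mem _ ha hb)
    have h2 := hT _ ha
    have h3 := hT _ hb
    rw [sq] at h1 h2 h3
    calc a * b = a * (a * b * (a * b)) * b := by rw [h1]; group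
      _ = (a * a) * b * a * (b * b) := by group
      _ = b * a := by rw [h2, h3]; group
  by_cases hN : Subgroup.normalizer (T : Set G) ≤ Subgroup.centralizer (T : Set G)
  · -- transfer
    have hcompl := MonoidHom.ker_transferSylow_isComplement' T hN
    set K := (MonoidHom.transferSylow T hN).ker with hK
    have hKodd : Odd (Nat.card K) := by
      have h1 : Nat.card K * Nat.card T = Nat.card G := hcompl.card_mul_card
      have h2 : ¬ 2 ∣ (T : Subgroup G).index := T.not_dvd_index
      have h3 : Nat.card T * (T : Subgroup G).index = Nat.card G := Subgroup.card_mul_index _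
      have h4 : Nat.card K = (T : Subgroup G).index := by
        have hpos : 0 < Nat.card T := Nat.card_pos
        apply Nat.eq_of_mul_eq_mul_right hpos
        rw [h1, ← h3, mul_comm]
      rw [h4]
      exact Nat.odd_iff.mpr (by omega)
    haveI : Group.IsSolvable K := ft K hKodd
    haveI : Group.IsSolvable T := Group.isSolvable_of_comm (fun a b => Subtype.ext (hcomm a a.2 b b.2))
    exact Group.isSolvable_of_ker_le_range K.subtype (MonoidHom.transferSylow T hN) (by
      rw [Subgroup.range_subtype])
  · exfalso
    obtain ⟨g, hg, hg'⟩ := Set.not_subset.mp hN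
    obtain ⟨t, ht, hgt⟩ : ∃ t ∈ (T : Subgroup G), t * g ≠ g * t := by
      by_contra hcon
      push Not at hcon
      exact hg' (Subgroup.mem_centralizer_iff.mpr hcon)
    obtain ⟨a, b, hab, hc, haz, hbz, ⟨k, hk⟩, hb⟩ := Cfsg.Agent.Lib.Transfer.Basic.exists_pPart_decomp (p := 2) g
    have hzle : Subgroup.zpowers g ≤ Subgroup.normalizer (T : Set G) := by
      rw [Subgroup.zpowers_le]
      exact hg
    -- `a ∈ T`
    have haT : a ∈ (T : Subgroup G) := by
      have hp : IsPGroup 2 (Subgroup.zpowers a) := by
        rintro ⟨_, i, rfl⟩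
        refine ⟨k, Subtype.ext ?_⟩
        change (a ^ i) ^ 2 ^ k = 1
        rw [← zpow_natCast, ← zpow_mul, mul_comm, zpow_mul, zpow_natCast, hk, one_zpow]
      have h1 : a ∈ Subgroup.zpowers a ⊓ Subgroup.normalizer (T : Set G) :=
        Subgroup.mem_inf.2 ⟨Subgroup.mem_zpowers a, hzle haz⟩
      rw [hp.inf_normalizer_sylow T] at h1
      exact (Subgroup.mem_inf.1 h1).2
    have hbN : b ∈ Subgroup.normalizer (T : Set G) := hzle hbz
    have hbt : b * t * b⁻¹ ≠ t := by
      intro h
      have h1 : b * t = t * b := mul_inv_eq_iff_eq_mul.mp h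
      apply hgt
      rw [hab]
      calc t * (a * b) = (t * a) * b := by group
        _ = (a * t) * b := by rw [hcomm t ht a haT]
        _ = a * (t * b) := by group
        _ = a * (b * t) := by rw [h1]
        _ = a * b * t := by group
    have hodd : Odd (orderOf b) := by
      rw [Nat.odd_iff]
      have := (Nat.Prime.coprime_iff_not_dvd Nat.prime_two).mp hb.symm
      omega
    have hbT : ∀ z ∈ (T : Subgroup G), b * z * b⁻¹ ∈ (T : Subgroup G) := fun z hz =>
      (Subgroup.mem_normalizer_iff.mp hbN z).mp hz
    have h1 := card_orbits_upper T hT hbT hodd ht hbt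
    have h2 := card_orbits_lower hNF T hT
    omega

/-- Quotients inherit the class-size condition. -/
theorem NF.quotient (hNF : NF G) (N : Subgroup G) [N.Normal] : NF (G ⧸ N) := by
  intro x
  obtain ⟨g, rfl⟩ := QuotientGroup.mk'_surjective N x
  intro h
  apply hNF g
  refine h.trans ?_
  rw [← Subgroup.index_comap_of_surjective _ (QuotientGroup.mk'_surjective N)]
  apply Subgroup.index_dvd_of_le
  intro z hz
  rw [Subgroup.mem_comap, Subgroup.mem_centralizer_iff]
  rintro _ rfl
  have : g * z = z * g := (Subgroup.mem_centralizer_iff.mp hz g rfl).symm ▸ rfl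
  change QuotientGroup.mk' N g * QuotientGroup.mk' N z = QuotientGroup.mk' N z * QuotientGroup.mk' N g
  rw [← map_mul, ← map_mul, this]

/-- **Main theorem**: given the Odd Order Theorem, no class size divisible by `4` implies
solvability. -/
theorem main (ft : ∀ (H : Type u) [Group H] [Finite H], Odd (Nat.card H) → Group.IsSolvable H) :
    ∀ (n : ℕ) (G : Type u) [Group G] [Finite G], Nat.card G = n → NF G → Group.IsSolvable G := by
  intro n
  induction n using Nat.strong_induction_on with
  | _ n ih =>
    intro G _ _ hn hNF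
    classical
    haveI : Fact (Nat.Prime 2) := ⟨Nat.prime_two⟩
    obtain ⟨T⟩ : Nonempty (Sylow 2 G) := inferInstance
    by_cases hT : ∀ t ∈ (T : Subgroup G), t ^ 2 = 1
    · exact solvable_of_elementary ft hNF T hT
    · set F : Subgroup G := Subgroup.closure {z | ∃ t ∈ (T : Subgroup G), z = t ^ 2} with hF
      -- `F` is central
      have hcen : ∀ z ∈ F, ∀ g : G, g * z = z * g := by
        have h1 : Subgroup.centralizer (F : Set G) = ⊤ := by
          apply Cfsg.Agent.Lib.Transfer.ClassSize.eq_top_of_forall_conj_mem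
          intro g
          obtain ⟨D, a, hDT, hcard, hcomm⟩ := exists_large (hNF g) T
          refine ⟨a, ?_⟩
          rw [Subgroup.mem_centralizer_iff]
          have hFD : F ≤ D := by
            rw [hF, Subgroup.closure_le]
            rintro _ ⟨t, ht, rfl⟩
            set D' : Subgroup T := D.subgroupOf (T : Subgroup G) with hD'
            have h2 : D'.index ≤ 2 := by
              have h3 : Nat.card D' * D'.index = Nat.card T := Subgroup.card_mul_index D'
              have h4 : Nat.card D' = Nat.card D := by
                rw [hD']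
                exact Nat.card_congr (Subgroup.subgroupOfEquivOfLe hDT).toEquiv
              rw [h4] at h3
              have h5 : 0 < Nat.card D := Nat.card_pos
              by_contra hcon
              push Not at hcon
              nlinarith
            have h3 : ((⟨t, ht⟩ : T) ^ 2) ∈ D' := by
              have h4 : D'.index ≠ 0 := Subgroup.index_ne_zero_of_finite
              have h5 : D'.index = 1 ∨ D'.index = 2 := by omega
              rcases h5 with h5 | h5
              · rw [Subgroup.index_eq_one] at h5
                rw [h5]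
                exact Subgroup.mem_top _
              · exact Subgroup.sq_mem_of_index_two h5 _
            exact h3
          intro z hz
          exact (hcomm z (hFD hz))
        intro z hz g
        have h2 : g ∈ Subgroup.centralizer (F : Set G) := by rw [h1]; exact Subgroup.mem_top _
        exact (Subgroup.mem_centralizer_iff.mp h2 z hz).symm
      haveI hFn : F.Normal := ⟨fun z hz g => by
        have := hcen z hz g
        rwa [mul_inv_eq_iff_eq_mul.mpr this]⟩
      have hFne : F ≠ ⊥ := by
        intro h
        apply hT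
        intro t ht
        have : t ^ 2 ∈ F := Subgroup.subset_closure ⟨t, ht, rfl⟩
        rw [h] at this
        exact Subgroup.mem_bot.mp this
      have hlt : Nat.card (G ⧸ F) < n := by
        have h1 : 1 < Nat.card F := F.one_lt_card_iff_ne_bot.mpr hFne
        have h2 := Subgroup.card_mul_index F
        rw [Subgroup.index_eq_card] at h2
        have h3 : 0 < Nat.card (G ⧸ F) := Nat.card_pos
        nlinarith
      haveI : Group.IsSolvable (G ⧸ F) := ih _ hlt (G ⧸ F) rfl (hNF.quotient F)
      haveI : Group.IsSolvable F := Group.isSolvable_of_comm (fun a b => Subtype.ext (hcen b b.2 a))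
      exact Group.isSolvable_of_ker_le_range F.subtype (QuotientGroup.mk' F) (by
        rw [QuotientGroup.ker_mk', Subgroup.range_subtype])

end Cfsg.Agent.Lib.Transfer.NoFour
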