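import Cfsg.Agent.Lib.Transfer.ClassSize

/-!
# Two primes and class sizes

If no conjugacy class size of `G` is divisible by `p * q` then `G` is the union of the centralizers
of Sylow `p`- and Sylow `q`-subgroups, which forces `N_G(S) ≤ C_G(S)` for one of these Sylow
subgroups, and Burnside's transfer theorem yields a normal complement (`S4160`).
-/

set_option autoImplicit false

namespace Cfsg.Agent.Lib.Transfer.TwoPrimeClasses

open Cfsg Cfsg.Agent.Lib.Transfer.ClassSize

universe u

variable {G : Type u} [Group G] [Finite G]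

/-- Conjugate Sylow subgroups have centralizers of the same order. -/
theorem card_centralizer_sylow_eq {p : ℕ} (S T : Sylow p G) [Fact p.Prime] :
    Nat.card (Subgroup.centralizer ((S : Subgroup G) : Set G)) =
      Nat.card (Subgroup.centralizer ((T : Subgroup G) : Set G)) := by
  obtain ⟨g, rfl⟩ := MulAction.exists_smul_eq G S T
  refine Nat.card_congr (Equiv.subtypeEquiv (MulAut.conj g).toEquiv ?_)
  have hmem : ∀ x : G, x ∈ ((g • S : Sylow p G) : Subgroup G) ↔ g⁻¹ * x * g ∈ (S : Subgroup G) := by
    intro x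
    constructor
    · rintro ⟨y, hy, rfl⟩
      have : g⁻¹ * (MulAut.conj g y) * g = y := by simp [mul_assoc]
      change g⁻¹ * (MulAut.conj g y) * g ∈ (S : Subgroup G)
      rw [this]; exact hy
    · intro h
      exact ⟨_, h, by simp [mul_assoc]⟩
  intro a
  simp only [MulEquiv.toEquiv_eq_coe, EquivLike.coe_coe, MulAut.conj_apply]
  rw [Subgroup.mem_centralizer_iff, Subgroup.mem_centralizer_iff]
  constructor
  · intro ha h hh
    have h1 := ha (g⁻¹ * h * g) ((hmem h).mp hh)
    calc h * (g * a * g⁻¹) = g * ((g⁻¹ * h * g) * a) * g⁻¹ := by group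
      _ = g * (a * (g⁻¹ * h * g)) * g⁻¹ := by rw [h1]
      _ = g * a * g⁻¹ * h := by group
  · intro ha h hh
    have h2 : g * h * g⁻¹ ∈ ((g • S : Sylow p G) : Subgroup G) :=
      (hmem _).mpr (by
        have : g⁻¹ * (g * h * g⁻¹) * g = h := by group
        rw [this]; exact hh)
    have h1 := ha _ h2
    have h3 : g * (h * a) * g⁻¹ = g * (a * h) * g⁻¹ := by
      calc g * (h * a) * g⁻¹ = (g * h * g⁻¹) * (g * a * g⁻¹) := by group
        _ = (g * a * g⁻¹) * (g * h * g⁻¹) := h1
        _ = g * (a * h) * g⁻¹ := by group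
    exact mul_left_cancel (mul_right_cancel h3)

/-- If `C_G(S) ≠ N_G(S)`, the conjugates of `C_G(S)` together have at most `|G| / 2` "weighted"
elements. -/
theorem two_mul_card_sylow_mul_le {p : ℕ} [Fact p.Prime] (S : Sylow p G)
    (h : ¬ Subgroup.normalizer ((S : Subgroup G) : Set G) ≤
      Subgroup.centralizer ((S : Subgroup G) : Set G)) :
    2 * (Nat.card (Sylow p G) * Nat.card (Subgroup.centralizer ((S : Subgroup G) : Set G))) ≤
      Nat.card G := by
  have hCN : Subgroup.centralizer ((S : Subgroup G) : Set G) ≤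
      Subgroup.normalizer ((S : Subgroup G) : Set G) :=
    Subgroup.centralizer_le_normalizer _
  have h1 : Nat.card (Sylow p G) = (Subgroup.normalizer ((S : Subgroup G) : Set G)).index :=
    Sylow.card_eq_index_normalizer S
  have h2 : Nat.card (Subgroup.centralizer ((S : Subgroup G) : Set G)) ∣
      Nat.card (Subgroup.normalizer ((S : Subgroup G) : Set G)) :=
    Subgroup.card_dvd_of_le hCN
  have hlt : Nat.card (Subgroup.centralizer ((S : Subgroup G) : Set G)) <
      Nat.card (Subgroup.normalizer ((S : Subgroup G) : Set G)) := by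
    exact Set.ncard_lt_ncard (show ((Subgroup.centralizer ((S : Subgroup G) : Set G) : Subgroup G) : Set G) ⊂ _ from lt_of_le_not_ge hCN h) (Set.toFinite _)
  obtain ⟨k, hk⟩ := h2
  have hk2 : 2 ≤ k := by
    rcases k with _ | _ | k
    · simp only [mul_zero] at hk; omega
    · simp only [zero_add, mul_one] at hk; omega
    · omega
  have h3 := (Subgroup.normalizer ((S : Subgroup G) : Set G)).card_mul_index
  rw [← h3, hk, h1]
  calc 2 * ((Subgroup.normalizer ((S : Subgroup G) : Set G)).index * Nat.card (Subgroup.centralizer ((S : Subgroup G) : Set G)))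
      = (Nat.card (Subgroup.centralizer ((S : Subgroup G) : Set G)) * 2) * (Subgroup.normalizer ((S : Subgroup G) : Set G)).index := by ring
    _ ≤ (Nat.card (Subgroup.centralizer ((S : Subgroup G) : Set G)) * k) * (Subgroup.normalizer ((S : Subgroup G) : Set G)).index :=
      Nat.mul_le_mul_right _ (Nat.mul_le_mul_left _ hk2)

/-- Covering bound: `G` is covered by the centralizers of Sylow `p`- and `q`-subgroups. -/
theorem card_le_of_cover {p q : ℕ} [Fact p.Prime] [Fact q.Prime] (S : Sylow p G) (T : Sylow q G)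
    (h : ∀ x : G, (∃ S' : Sylow p G, x ∈ Subgroup.centralizer ((S' : Subgroup G) : Set G)) ∨
      (∃ T' : Sylow q G, x ∈ Subgroup.centralizer ((T' : Subgroup G) : Set G))) :
    Nat.card G + Nat.card (Sylow p G) + Nat.card (Sylow q G) ≤ 1 +
      Nat.card (Sylow p G) * Nat.card (Subgroup.centralizer ((S : Subgroup G) : Set G)) +
      Nat.card (Sylow q G) * Nat.card (Subgroup.centralizer ((T : Subgroup G) : Set G)) := by
  classical
  haveI := Fintype.ofFinite G
  haveI := Fintype.ofFinite (Sylow p G)
  haveI := Fintype.ofFinite (Sylow q G)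
  let A : Sylow p G → Finset G := fun S' =>
    (Finset.univ.filter (fun x => x ∈ Subgroup.centralizer ((S' : Subgroup G) : Set G))).erase 1
  let B : Sylow q G → Finset G := fun T' =>
    (Finset.univ.filter (fun x => x ∈ Subgroup.centralizer ((T' : Subgroup G) : Set G))).erase 1
  have hA : ∀ S' : Sylow p G, (A S').card + 1 = Nat.card (Subgroup.centralizer ((S : Subgroup G) : Set G)) := by
    intro S'
    rw [card_centralizer_sylow_eq S S', Finset.card_erase_add_one (by simp),
      Nat.card_eq_fintype_card, Fintype.card_subtype]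
  have hB : ∀ T' : Sylow q G, (B T').card + 1 = Nat.card (Subgroup.centralizer ((T : Subgroup G) : Set G)) := by
    intro T'
    rw [card_centralizer_sylow_eq T T', Finset.card_erase_add_one (by simp),
      Nat.card_eq_fintype_card, Fintype.card_subtype]
  have hcover : (Finset.univ : Finset G) ⊆ {1} ∪ (Finset.univ.biUnion A ∪ Finset.univ.biUnion B) := by
    intro x _
    by_cases hx : x = 1
    · simp [hx]
    · simp only [Finset.mem_union, Finset.mem_biUnion, Finset.mem_univ, true_and]
      right
      rcases h x with ⟨S', hS'⟩ | ⟨T', hT'⟩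
      · exact Or.inl ⟨S', Finset.mem_erase.mpr ⟨hx, Finset.mem_filter.mpr ⟨Finset.mem_univ _, hS'⟩⟩⟩
      · exact Or.inr ⟨T', Finset.mem_erase.mpr ⟨hx, Finset.mem_filter.mpr ⟨Finset.mem_univ _, hT'⟩⟩⟩
  have hcard := Finset.card_le_card hcover
  have h1 := Finset.card_union_le ({1} : Finset G) (Finset.univ.biUnion A ∪ Finset.univ.biUnion B)
  have h2 := Finset.card_union_le (Finset.univ.biUnion A) (Finset.univ.biUnion B)
  have h3 : (Finset.univ.biUnion A).card ≤ ∑ S', (A S').card := Finset.card_biUnion_le
  have h4 : (Finset.univ.biUnion B).card ≤ ∑ T', (B T').card := Finset.card_biUnion_le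
  have h5 : (∑ S', (A S').card) + Nat.card (Sylow p G) = Nat.card (Sylow p G) *
      Nat.card (Subgroup.centralizer ((S : Subgroup G) : Set G)) := by
    rw [Nat.card_eq_fintype_card, ← Finset.card_univ, Finset.card_eq_sum_ones (Finset.univ : Finset (Sylow p G)),
      ← Finset.sum_add_distrib, Finset.sum_mul]
    exact Finset.sum_congr rfl (fun S' _ => by rw [hA S', one_mul])
  have h6 : (∑ T', (B T').card) + Nat.card (Sylow q G) = Nat.card (Sylow q G) *
      Nat.card (Subgroup.centralizer ((T : Subgroup G) : Set G)) := by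
    rw [Nat.card_eq_fintype_card, ← Finset.card_univ, Finset.card_eq_sum_ones (Finset.univ : Finset (Sylow q G)),
      ← Finset.sum_add_distrib, Finset.sum_mul]
    exact Finset.sum_congr rfl (fun T' _ => by rw [hB T', one_mul])
  simp only [Finset.card_univ, Finset.card_singleton] at hcard h1
  rw [Nat.card_eq_fintype_card (α := G)]
  omega

theorem hasNormalPComplement_or (p q : ℕ) [Fact p.Prime] [Fact q.Prime]
    (h : ∀ x : G, ¬ p * q ∣ (Subgroup.centralizer ({x} : Set G)).index) (hpq : p ≠ q) :
    HasNormalPComplement p G ∨ HasNormalPComplement q G := by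
  have hp : p.Prime := Fact.out
  have hq : q.Prime := Fact.out
  have hcop : Nat.Coprime p q := (Nat.coprime_primes hp hq).mpr hpq
  obtain ⟨S⟩ : Nonempty (Sylow p G) := inferInstance
  obtain ⟨T⟩ : Nonempty (Sylow q G) := inferInstance
  by_cases hS : Subgroup.normalizer ((S : Subgroup G) : Set G) ≤
      Subgroup.centralizer ((S : Subgroup G) : Set G)
  · exact Or.inl ⟨S, _, inferInstance, MonoidHom.ker_transferSylow_isComplement' S hS⟩
  by_cases hT : Subgroup.normalizer ((T : Subgroup G) : Set G) ≤
      Subgroup.centralizer ((T : Subgroup G) : Set G)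
  · exact Or.inr ⟨T, _, inferInstance, MonoidHom.ker_transferSylow_isComplement' T hT⟩
  exfalso
  have hcov : ∀ x : G, (∃ S' : Sylow p G, x ∈ Subgroup.centralizer ((S' : Subgroup G) : Set G)) ∨
      (∃ T' : Sylow q G, x ∈ Subgroup.centralizer ((T' : Subgroup G) : Set G)) := by
    intro x
    have hx : ¬ p ∣ (Subgroup.centralizer ({x} : Set G)).index ∨
        ¬ q ∣ (Subgroup.centralizer ({x} : Set G)).index := by
      by_contra hcon
      push Not at hcon
      exact h x (hcop.mul_dvd_of_dvd_of_dvd hcon.1 hcon.2)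
    have key : ∀ (r : ℕ) [Fact r.Prime], ¬ r ∣ (Subgroup.centralizer ({x} : Set G)).index →
        ∃ S' : Sylow r G, x ∈ Subgroup.centralizer ((S' : Subgroup G) : Set G) := by
      intro r _ hr
      obtain ⟨Q, -, hQ⟩ := exists_sylow_of_not_dvd_index r hr (Commute.one_left x) ⟨0, by simp⟩
      exact ⟨Q, Subgroup.mem_centralizer_iff.mpr (fun z hz => (hQ z hz).symm)⟩
    rcases hx with hx | hx
    · exact Or.inl (key p hx)
    · exact Or.inr (key q hx)
  have h1 := card_le_of_cover S T hcov
  have h2 := two_mul_card_sylow_mul_le S hS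
  have h3 := two_mul_card_sylow_mul_le T hT
  have h4 : 0 < Nat.card (Sylow p G) := Nat.card_pos
  have h5 : 0 < Nat.card (Sylow q G) := Nat.card_pos
  omega

end Cfsg.Agent.Lib.Transfer.TwoPrimeClasses
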